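/-
A binomial coefficient C(m,k) with 1 ≤ k ≤ m/2 has a prime divisor q with k < q or m < q * q.
-/
import Mathlib

set_option autoImplicit false

namespace CfsgLib.AltGroups

open Finset

/-- number of primes up to `n` -/
private def piCount (n : ℕ) : ℕ := ((Finset.range (n + 1)).filter Nat.Prime).card

private theorem piCount_add_two {n : ℕ} (hn : 2 ≤ n) : piCount (n + 2) ≤ piCount n + 1 := by
  have h1 : piCount (n + 2) ≤ piCount (n + 1) + (if (n + 2).Prime then 1 else 0) := by
    unfold piCount
    rw [Finset.range_add_one (n := n + 2), Finset.filter_insert]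
    split
    · exact (Finset.card_insert_le _ _)
    · simp
  have h2 : piCount (n + 1) ≤ piCount n + (if (n + 1).Prime then 1 else 0) := by
    unfold piCount
    rw [Finset.range_add_one (n := n + 1), Finset.filter_insert]
    split
    · exact (Finset.card_insert_le _ _)
    · simp
  have h3 : ¬ ((n + 1).Prime ∧ (n + 2).Prime) := by
    rintro ⟨ha, hb⟩
    rcases ha.eq_two_or_odd with h | h <;> rcases hb.eq_two_or_odd with h' | h' <;> omega
  by_cases ha : (n + 1).Prime <;> by_cases hb : (n + 2).Prime <;>
    simp_all <;> omega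

private theorem two_mul_piCount_le : ∀ n : ℕ, 8 ≤ n → 2 * piCount n ≤ n := by
  intro n
  induction n using Nat.strong_induction_on with
  | _ n ih =>
    intro h
    rcases Nat.lt_or_ge n 10 with h' | h'
    · interval_cases n <;> decide
    · obtain ⟨j, rfl⟩ : ∃ j, n = j + 2 := ⟨n - 2, by omega⟩
      have := ih j (by omega) (by omega)
      have := piCount_add_two (n := j) (by omega)
      omega

private theorem two_mul_piCount_cases {s : ℕ} (hs : 2 ≤ s) :
    2 * piCount s ≤ s ∨ ((s = 3 ∨ s = 5 ∨ s = 7) ∧ 2 * piCount s = s + 1) := by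
  rcases Nat.lt_or_ge s 8 with h | h
  · interval_cases s <;> decide
  · exact Or.inl (two_mul_piCount_le s h)

private theorem pow_lt_pow_mul_choose {m s : ℕ} (hs : 2 ≤ s) (hsm : s < m) :
    m ^ s < s ^ s * m.choose s := by
  have h : ∏ i ∈ range s, m * (s - i) < ∏ i ∈ range s, s * (m - i) := by
    apply Finset.prod_lt_prod
    · intro i hi
      have := Finset.mem_range.mp hi
      exact Nat.mul_pos (by omega) (by omega)
    · intro i hi
      have := Finset.mem_range.mp hi
      rw [Nat.mul_sub, Nat.mul_sub, mul_comm m s]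
      exact Nat.sub_le_sub_left (Nat.mul_le_mul_right i hsm.le) _
    · refine ⟨1, Finset.mem_range.mpr hs, ?_⟩
      rw [Nat.mul_sub, Nat.mul_sub, mul_comm m s, mul_one, mul_one]
      exact Nat.sub_lt_sub_left (by nlinarith) hsm
  rw [Finset.prod_mul_distrib, Finset.prod_mul_distrib, Finset.prod_const, Finset.prod_const,
    Finset.card_range, ← Nat.descFactorial_eq_prod_range, ← Nat.descFactorial_eq_prod_range,
    Nat.descFactorial_self, Nat.descFactorial_eq_factorial_mul_choose] at h
  have h' : s.factorial * m ^ s < s.factorial * (s ^ s * m.choose s) := by linarith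
  exact Nat.lt_of_mul_lt_mul_left h'

private theorem choose_mono {m j : ℕ} : ∀ {k : ℕ}, j ≤ k → 2 * k ≤ m → m.choose j ≤ m.choose k := by
  intro k hjk
  induction k, hjk using Nat.le_induction with
  | base => exact fun _ => le_rfl
  | succ k _ ih =>
    intro h
    exact (ih (by omega)).trans (Nat.choose_le_succ_of_lt_half_left (by omega))

private def smallPrimes : List ℕ :=
  [97, 89, 83, 79, 73, 71, 67, 61, 59, 53, 47, 43, 41, 37, 31, 29, 23, 19, 17, 13, 11, 7, 5, 3, 2]

private theorem prime_of_mem_smallPrimes : ∀ p ∈ smallPrimes, p.Prime := by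
  intro p hp
  simp only [smallPrimes, List.mem_cons, List.not_mem_nil, or_false] at hp
  obtain rfl | rfl | rfl | rfl | rfl | rfl | rfl | rfl | rfl | rfl | rfl | rfl | rfl | rfl | rfl |
    rfl | rfl | rfl | rfl | rfl | rfl | rfl | rfl | rfl | rfl := hp <;> norm_num

set_option maxRecDepth 100000 in
set_option maxHeartbeats 4000000 in
private theorem small_check : ∀ m < 100, ∀ k < 50, 2 ≤ k → 2 * k ≤ m →
    smallPrimes.any (fun q => decide (k < q ∧ m % q < k)) = true := by
  decide +kernel

/-- A prime not dividing the two digit binomials. -/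
theorem prime_dvd_choose_mod_lt {q m k : ℕ} (hq : q.Prime) (h : m % q < k % q) :
    q ∣ m.choose k := by
  have := Fact.mk hq
  have h1 := Choose.choose_modEq_choose_mod_mul_choose_div_nat (n := m) (k := k) (p := q)
  rw [Nat.choose_eq_zero_of_lt h, zero_mul] at h1
  exact Nat.modEq_zero_iff_dvd.mp h1

/-- Conversely, when the prime is above `k` or its square above `m`. -/
theorem mod_lt_mod_of_prime_dvd_choose {q m k : ℕ} (hq : q.Prime) (hkm : k ≤ m)
    (hd : q ∣ m.choose k) (hbig : k < q ∨ m < q * q) : m % q < k % q := by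
  by_contra hle
  rw [not_lt] at hle
  have := Fact.mk hq
  have h1 := Choose.choose_modEq_choose_mod_mul_choose_div_nat (n := m) (k := k) (p := q)
  have h2 : q ∣ (m % q).choose (k % q) * (m / q).choose (k / q) :=
    Nat.modEq_zero_iff_dvd.mp (h1.symm.trans (Nat.modEq_zero_iff_dvd.mpr hd))
  rcases hq.dvd_mul.mp h2 with h | h
  · exact absurd (hq.dvd_factorial.mp (h.trans ⟨_, (Nat.choose_mul_factorial_mul_factorial
      hle).symm.trans (mul_assoc _ _ _)⟩)) (not_le.mpr (Nat.mod_lt _ hq.pos))
  · rcases hbig with hb | hb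
    · rw [Nat.div_eq_of_lt hb, Nat.choose_zero_right] at h
      exact hq.one_lt.ne' (Nat.dvd_one.mp h)
    · have hlt : m / q < q := Nat.div_lt_of_lt_mul hb
      have hle' : k / q ≤ m / q := Nat.div_le_div_right hkm
      exact absurd (hq.dvd_factorial.mp (h.trans ⟨_, (Nat.choose_mul_factorial_mul_factorial
        hle').symm.trans (mul_assoc _ _ _)⟩)) (not_le.mpr hlt)

/-- A weak form of Sylvester's theorem. -/
theorem exists_large_prime_dvd_choose {m k : ℕ} (hk : 1 ≤ k) (hkm : 2 * k ≤ m) :
    ∃ q : ℕ, q.Prime ∧ q ∣ m.choose k ∧ (k < q ∨ m < q * q) := by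
  by_contra hcon
  push Not at hcon
  rcases (show k = 1 ∨ 2 ≤ k by omega) with rfl | hk2
  · have hne : m ≠ 1 := by omega
    have := hcon m.minFac (Nat.minFac_prime hne) (by simpa using Nat.minFac_dvd m)
    have := (Nat.minFac_prime hne).two_le
    omega
  set s := min k (Nat.sqrt m) with hs
  have hm4 : 2 * 2 ≤ m := by omega
  have hs2 : 2 ≤ s := le_min hk2 (Nat.le_sqrt.mpr hm4)
  have hss : s * s ≤ m := (Nat.mul_le_mul (min_le_right k _) (min_le_right k _)).trans (Nat.sqrt_le m)
  have hsk : s ≤ k := min_le_left _ _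
  -- every prime divisor is at most s, so the coefficient is at most m ^ π(s)
  have hup : m.choose k ≤ m ^ piCount s := by
    rw [← Nat.prod_pow_factorization_choose m k (by omega)]
    have hsub : (range (s + 1)).filter Nat.Prime ⊆ range (m + 1) := by
      intro p hp
      have := Finset.mem_range.mp (Finset.mem_filter.mp hp).1
      exact Finset.mem_range.mpr (by omega)
    rw [← Finset.prod_subset hsub (fun p _ hp => ?_)]
    · exact (Finset.prod_le_pow_card _ _ _ fun p _ => Nat.pow_factorization_choose_le (by omega))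
    · by_cases hf : (m.choose k).factorization p = 0
      · simp [hf]
      · exfalso
        have hpp : p.Prime := Not.imp_symm (Nat.factorization_eq_zero_of_not_prime _) hf
        obtain ⟨h1, h2⟩ := hcon p hpp (Nat.dvd_of_factorization_pos hf)
        apply hp
        rw [Finset.mem_filter, Finset.mem_range]
        refine ⟨?_, hpp⟩
        have : p ≤ s := le_min h1 (Nat.le_sqrt.mpr h2)
        omega
  have hlow : m ^ s < s ^ s * m ^ piCount s :=
    (pow_lt_pow_mul_choose hs2 (by omega)).trans_le
      (Nat.mul_le_mul_left _ ((choose_mono hsk hkm).trans hup))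
  have hsq : (m ^ s) * (m ^ s) < (s * s) ^ s * m ^ (2 * piCount s) := by
    calc (m ^ s) * (m ^ s) < (s ^ s * m ^ piCount s) * (s ^ s * m ^ piCount s) := by
          exact Nat.mul_self_lt_mul_self hlow
      _ = _ := by rw [mul_pow, two_mul, pow_add]; ring
  rcases two_mul_piCount_cases hs2 with h | ⟨h357, h⟩
  · have h1 : (s * s) ^ s * m ^ (2 * piCount s) ≤ m ^ s * m ^ s :=
      Nat.mul_le_mul (Nat.pow_le_pow_left hss s) (Nat.pow_le_pow_right (by omega) h)
    omega
  · rw [h, pow_succ] at hsq
    have hm : m ^ s < (s * s) ^ s * m := by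
      have h' : m ^ s * m ^ s < m ^ s * ((s * s) ^ s * m) := by linarith
      exact Nat.lt_of_mul_lt_mul_left h'
    have hm100 : m < 100 := by
      by_contra h100
      rw [not_lt] at h100
      obtain ⟨j, hj⟩ : ∃ j, s = j + 1 := ⟨s - 1, by omega⟩
      rw [hj, pow_succ m] at hm
      have hj' := Nat.lt_of_mul_lt_mul_right hm
      have h1 : 100 ^ j ≤ m ^ j := Nat.pow_le_pow_left h100 _
      rcases h357 with rfl' | rfl' | rfl' <;>
        (obtain rfl : j = s - 1 := by omega) <;> rw [rfl'] at hj' h1 <;> norm_num at hj' h1 <;> omega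
    have := small_check m hm100 k (by omega) hk2 hkm
    obtain ⟨q, hqmem, hq⟩ := List.any_eq_true.mp this
    simp only [decide_eq_true_eq] at hq
    have hqp := prime_of_mem_smallPrimes q hqmem
    have hd : q ∣ m.choose k := prime_dvd_choose_mod_lt hqp (by rw [Nat.mod_eq_of_lt hq.1]; exact hq.2)
    have := (hcon q hqp hd).1
    omega

end CfsgLib.AltGroups
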