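import Mathlib

/-!
The composition length of a finite group, through chains of subgroups each normal in the next.
-/

set_option autoImplicit false
set_option linter.style.haveILetI false
set_option linter.unusedSectionVars false

open scoped ArithmeticFunction.Omega

namespace CfsgLib.AltGroups

variable {G : Type*} [Group G]

/-- `Chain K l`: a chain of length `l` from `⊥` to `K`, each term proper and normal in the next. -/
inductive SubnormalChain {G : Type*} [Group G] : Subgroup G → ℕ → Prop
  | bot : SubnormalChain ⊥ 0
  | step {H K : Subgroup G} {l : ℕ} : SubnormalChain H l → H < K → (H.subgroupOf K).Normal →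
      SubnormalChain K (l + 1)

/-- The composition length. -/
noncomputable def compLen (G : Type*) [Group G] : ℕ := sSup {l | SubnormalChain (⊤ : Subgroup G) l}

theorem SubnormalChain.le_cardFactors [Finite G] {K : Subgroup G} {l : ℕ} (h : SubnormalChain K l) :
    l ≤ Ω (Nat.card K) := by
  induction h with
  | bot => exact Nat.zero_le _
  | @step H K l _ hlt _ ih =>
    have hdvd := Subgroup.card_dvd_of_le hlt.le
    obtain ⟨c, hc⟩ := hdvd
    have hc0 : c ≠ 0 := fun e => Nat.card_pos.ne' (by rw [hc, e, mul_zero])
    rw [hc, ArithmeticFunction.cardFactors_mul Nat.card_pos.ne' hc0]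
    have : 0 < Ω c := ArithmeticFunction.cardFactors_pos_iff_one_lt.mpr (by
      by_contra hle
      have hc1 : c = 1 := by omega
      rw [hc1, mul_one] at hc
      exact hlt.ne (Subgroup.eq_of_le_of_card_ge hlt.le hc.le))
    omega

theorem bddAbove_chain [Finite G] : BddAbove {l | SubnormalChain (⊤ : Subgroup G) l} :=
  ⟨Ω (Nat.card (⊤ : Subgroup G)), fun _ hl => SubnormalChain.le_cardFactors hl⟩

theorem le_compLen [Finite G] {l : ℕ} (h : SubnormalChain (⊤ : Subgroup G) l) : l ≤ compLen G :=
  le_csSup bddAbove_chain h

/-- A chain ending at a normal subgroup extends to the whole group. -/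
theorem SubnormalChain.exists_top {K : Subgroup G} [K.Normal] {l : ℕ} (h : SubnormalChain K l) :
    ∃ m, l ≤ m ∧ SubnormalChain (⊤ : Subgroup G) m := by
  by_cases hK : K = ⊤
  · exact ⟨l, le_rfl, hK ▸ h⟩
  · exact ⟨l + 1, by omega, h.step (lt_top_iff_ne_top.mpr hK) inferInstance⟩

theorem exists_chain_compLen [Finite G] : SubnormalChain (⊤ : Subgroup G) (compLen G) := by
  obtain ⟨m, -, hm⟩ := (SubnormalChain.bot (G := G)).exists_top
  exact Nat.sSup_mem ⟨m, hm⟩ bddAbove_chain

theorem compLen_le_cardFactors [Finite G] : compLen G ≤ Ω (Nat.card G) :=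
  (exists_chain_compLen (G := G)).le_cardFactors.trans_eq (by rw [Subgroup.card_top])

theorem two_pow_cardFactors_le : ∀ {n : ℕ}, n ≠ 0 → 2 ^ Ω n ≤ n := by
  intro n
  induction n using Nat.strong_induction_on with
  | _ n ih =>
    intro hn
    rcases eq_or_ne n 1 with rfl | h1
    · simp
    obtain ⟨q, hq, c, rfl⟩ := Nat.exists_prime_and_dvd h1
    have hc : c ≠ 0 := fun e => hn (by rw [e, mul_zero])
    have hlt : c < q * c := lt_mul_of_one_lt_left (Nat.pos_of_ne_zero hc) hq.one_lt
    rw [ArithmeticFunction.cardFactors_mul hq.ne_zero hc, ArithmeticFunction.cardFactors_apply_prime hq,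
      pow_add, pow_one]
    exact Nat.mul_le_mul hq.two_le (ih c hlt hc)

theorem two_pow_compLen_le [Finite G] : 2 ^ compLen G ≤ Nat.card G :=
  (Nat.pow_le_pow_right (by norm_num) compLen_le_cardFactors).trans (two_pow_cardFactors_le Nat.card_pos.ne')

theorem compLen_eq_zero [Finite G] (h : Nat.card G = 1) : compLen G = 0 := by
  have := compLen_le_cardFactors (G := G)
  rw [h, ArithmeticFunction.cardFactors_one] at this
  omega

theorem one_le_compLen [Finite G] [Nontrivial G] : 1 ≤ compLen G :=
  le_compLen ((SubnormalChain.bot (G := G)).step bot_lt_top (by infer_instance))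

theorem compLen_simple_le [Finite G] [IsSimpleGroup G] : compLen G ≤ 1 := by
  have h := exists_chain_compLen (G := G)
  generalize compLen G = m at h
  generalize hK : (⊤ : Subgroup G) = K at h
  cases h with
  | bot => omega
  | @step H _ l h hlt hn =>
    subst hK
    have hHn : H.Normal := by
      constructor
      intro x hx g
      exact hn.conj_mem ⟨x, Subgroup.mem_top x⟩ hx ⟨g, Subgroup.mem_top g⟩
    rcases hHn.eq_bot_or_eq_top with rfl | rfl
    · have := h.le_cardFactors
      rw [Subgroup.card_bot, ArithmeticFunction.cardFactors_one] at this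
      omega
    · exact absurd hlt (lt_irrefl _)

/-- Pulling a chain back along a homomorphism. -/
theorem SubnormalChain.comap_step {Q : Type*} [Group Q] [Finite G] (f : G →* Q)
    (hf : Function.Surjective f) {a : ℕ} (ha : SubnormalChain (⊤ : Subgroup f.ker) a) {K : Subgroup Q} {b : ℕ}
    (hb : SubnormalChain K b) : SubnormalChain (K.comap f) (a + b) := by
  induction hb with
  | bot =>
    have key : ∀ {M : Subgroup f.ker} {m : ℕ}, SubnormalChain M m → SubnormalChain (M.map f.ker.subtype) m := by
      intro M m hM
      induction hM with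
      | bot => rw [Subgroup.map_bot]; exact SubnormalChain.bot
      | @step H K l _ hlt hn ih =>
        refine ih.step (Subgroup.map_lt_map_iff_of_injective f.ker.subtype_injective |>.mpr hlt) ?_
        rw [Subgroup.normal_subgroupOf_iff (Subgroup.map_mono hlt.le)]
        rintro _ _ ⟨h, hh, rfl⟩ ⟨k, hk, rfl⟩
        exact ⟨k * h * k⁻¹, (Subgroup.normal_subgroupOf_iff hlt.le).mp hn h k hh hk, by simp⟩
    have := key ha
    rwa [← MonoidHom.range_eq_map, Subgroup.range_subtype] at this
  | @step H K l _ hlt hn ih =>
    refine ih.step ?_ ?_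
    · exact lt_of_le_of_ne (Subgroup.comap_mono hlt.le) fun e => hlt.ne (Subgroup.comap_injective hf e)
    · rw [Subgroup.normal_subgroupOf_iff (Subgroup.comap_mono hlt.le)]
      intro h k hh hk
      rw [Subgroup.mem_comap, map_mul, map_mul, map_inv]
      exact (Subgroup.normal_subgroupOf_iff hlt.le).mp hn (f h) (f k) hh hk

/-- Composition length is additive. -/
theorem compLen_ker_add_le {Q : Type*} [Group Q] [Finite G] [Finite Q] (f : G →* Q)
    (hf : Function.Surjective f) : compLen f.ker + compLen Q ≤ compLen G := by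
  have h := SubnormalChain.comap_step f hf exists_chain_compLen (exists_chain_compLen (G := Q))
  rw [Subgroup.comap_top] at h
  exact le_compLen h

/-- Composition length is subadditive. -/
theorem compLen_le_ker_add {Q : Type*} [Group Q] [Finite G] [Finite Q] (f : G →* Q)
    (hf : Function.Surjective f) : compLen G ≤ compLen f.ker + compLen Q := by
  have key : ∀ {K : Subgroup G} {l : ℕ}, SubnormalChain K l →
      ∃ a b, l ≤ a + b ∧ SubnormalChain (K.subgroupOf f.ker) a ∧ SubnormalChain (K.map f) b := by
    intro K l hK
    induction hK with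
    | bot =>
      refine ⟨0, 0, le_rfl, ?_, ?_⟩
      · rw [Subgroup.bot_subgroupOf]; exact SubnormalChain.bot
      · rw [Subgroup.map_bot]; exact SubnormalChain.bot
    | @step H K l _ hlt hn ih =>
      obtain ⟨a, b, hab, ha, hb⟩ := ih
      have hle1 : H.subgroupOf f.ker ≤ K.subgroupOf f.ker := Subgroup.comap_mono hlt.le
      have hle2 : H.map f ≤ K.map f := Subgroup.map_mono hlt.le
      have hn1 : ((H.subgroupOf f.ker).subgroupOf (K.subgroupOf f.ker)).Normal := by
        rw [Subgroup.normal_subgroupOf_iff hle1]
        exact fun h k hh hk => (Subgroup.normal_subgroupOf_iff hlt.le).mp hn h k hh hk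
      have hn2 : ((H.map f).subgroupOf (K.map f)).Normal := by
        rw [Subgroup.normal_subgroupOf_iff hle2]
        rintro _ _ ⟨h, hh, rfl⟩ ⟨k, hk, rfl⟩
        exact ⟨k * h * k⁻¹, (Subgroup.normal_subgroupOf_iff hlt.le).mp hn h k hh hk, by simp⟩
      by_cases h1 : H.subgroupOf f.ker = K.subgroupOf f.ker
      · refine ⟨a, b + 1, by omega, h1 ▸ ha, hb.step (lt_of_le_of_ne hle2 fun h2 => hlt.ne ?_) hn2⟩
        refine le_antisymm hlt.le fun x hx => ?_
        obtain ⟨y, hy, hyx⟩ : f x ∈ H.map f := by rw [h2]; exact ⟨x, hx, rfl⟩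
        have hker : y⁻¹ * x ∈ f.ker := by
          rw [MonoidHom.mem_ker, map_mul, map_inv, hyx, inv_mul_cancel]
        have hmem : (⟨_, hker⟩ : f.ker) ∈ H.subgroupOf f.ker := by
          rw [h1]; exact K.mul_mem (K.inv_mem (hlt.le hy)) hx
        simpa using H.mul_mem hy (Subgroup.mem_subgroupOf.mp hmem)
      · by_cases h2 : H.map f = K.map f
        · exact ⟨a + 1, b, by omega, ha.step (lt_of_le_of_ne hle1 h1) hn1, h2 ▸ hb⟩
        · exact ⟨a + 1, b + 1, by omega, ha.step (lt_of_le_of_ne hle1 h1) hn1,
            hb.step (lt_of_le_of_ne hle2 h2) hn2⟩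
  obtain ⟨a, b, hab, ha, hb⟩ := key (exists_chain_compLen (G := G))
  rw [Subgroup.top_subgroupOf] at ha
  rw [← MonoidHom.range_eq_map, MonoidHom.range_eq_top.mpr hf] at hb
  exact hab.trans (Nat.add_le_add (le_compLen ha) (le_compLen hb))

theorem compLen_eq_ker_add {Q : Type*} [Group Q] [Finite G] [Finite Q] (f : G →* Q)
    (hf : Function.Surjective f) : compLen G = compLen f.ker + compLen Q :=
  le_antisymm (compLen_le_ker_add f hf) (compLen_ker_add_le f hf)

theorem compLen_congr {Q : Type*} [Group Q] [Finite G] [Finite Q] (e : G ≃* Q) : compLen G = compLen Q := by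
  rw [compLen_eq_ker_add e.toMonoidHom e.surjective, compLen_eq_zero (G := e.toMonoidHom.ker)]
  · rw [zero_add]
  · rw [Subgroup.card_eq_one, MonoidHom.ker_eq_bot_iff]
    exact e.injective

/-- Composition length is at most that of the kernel plus that of the image. -/
theorem compLen_le_ker_add_range {Q : Type*} [Group Q] [Finite G] [Finite Q] (f : G →* Q) :
    compLen G ≤ compLen f.ker + compLen f.range := by
  have h := compLen_le_ker_add f.rangeRestrict f.rangeRestrict_surjective
  rwa [show f.rangeRestrict.ker = f.ker from f.ker_rangeRestrict] at h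

theorem compLen_pi_le {T : Type*} [Group T] [Finite T] [IsSimpleGroup T] :
    ∀ k : ℕ, compLen (Fin k → T) ≤ k := by
  intro k
  induction k with
  | zero => rw [compLen_eq_zero]; simp
  | succ k ih =>
    let f : (Fin (k + 1) → T) →* T := Pi.evalMonoidHom (fun _ => T) 0
    have hf : Function.Surjective f := fun t => ⟨fun _ => t, rfl⟩
    let e : f.ker ≃* (Fin k → T) :=
      { toFun := fun u i => u.1 i.succ
        invFun := fun v => ⟨Fin.cons 1 v, by rw [MonoidHom.mem_ker]; rfl⟩
        left_inv := fun u => Subtype.ext (funext fun i => by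
          refine Fin.cases ?_ ?_ i
          · exact (MonoidHom.mem_ker.mp u.2).symm
          · intro j; rfl)
        right_inv := fun v => funext fun i => rfl
        map_mul' := fun u v => rfl }
    calc compLen (Fin (k + 1) → T) ≤ compLen f.ker + compLen T := compLen_le_ker_add f hf
      _ ≤ k + 1 := Nat.add_le_add ((compLen_congr e).trans_le ih) compLen_simple_le

end CfsgLib.AltGroups
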