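import Cfsg.Agent.Lib.AltGroups.PowerSubgroups
import Cfsg.Agent.Lib.AltGroups.MinimalNormalProduct

/-!
The composition length of a permutation group of degree `n` with `r` orbits is at most `4(n - r)/3`.
-/

set_option autoImplicit false
set_option linter.style.haveILetI false
set_option linter.unusedSectionVars false

open scoped Pointwise
open MulAction

namespace CfsgLib.AltGroups.CompBound

/-- The number of orbits. -/
noncomputable abbrev orbits (G Ω : Type*) [Group G] [MulAction G Ω] : ℕ :=
  Nat.card (Quotient (MulAction.orbitRel G Ω))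

/-- The bound in degree `n`. -/
def Bound (n : ℕ) : Prop :=
  ∀ G : Subgroup (Equiv.Perm (Fin n)), 3 * compLen G + 4 * orbits G (Fin n) ≤ 4 * n

theorem bound_of {G Ω : Type*} [Group G] [Finite G] [MulAction G Ω] [FaithfulSMul G Ω] [Finite Ω]
    (h : Bound (Nat.card Ω)) : 3 * compLen G + 4 * orbits G Ω ≤ 4 * Nat.card Ω := by
  let e : Ω ≃ Fin (Nat.card Ω) := Finite.equivFin Ω
  let f : G →* Equiv.Perm (Fin (Nat.card Ω)) := e.permCongrHom.toMonoidHom.comp (MulAction.toPermHom G Ω)
  have hf : Function.Injective f := e.permCongrHom.injective.comp MulAction.toPerm_injective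
  have hfe : ∀ (g : G) (w : Ω), f g (e w) = e (g • w) := fun g w => by
    show e (g • e.symm (e w)) = _
    rw [e.symm_apply_apply]
  have hrel : ∀ a b : Ω, MulAction.orbitRel G Ω a b ↔
      MulAction.orbitRel f.range (Fin (Nat.card Ω)) (e a) (e b) := by
    intro a b
    rw [MulAction.orbitRel_apply, MulAction.orbitRel_apply]
    constructor
    · rintro ⟨g, rfl⟩
      exact ⟨⟨f g, ⟨g, rfl⟩⟩, hfe g b⟩
    · rintro ⟨⟨_, ⟨g, rfl⟩⟩, hg⟩
      exact ⟨g, e.injective ((hfe g b).symm.trans hg)⟩
  have horb : orbits G Ω = orbits f.range (Fin (Nat.card Ω)) := Nat.card_congr (Quotient.congr e hrel)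
  rw [compLen_congr (MonoidHom.ofInjective hf), horb]
  exact h f.range

theorem le_orbits {K Ω X : Type*} [Group K] [MulAction K Ω] [Finite Ω] (π : Ω → X)
    (hinv : ∀ (k : K) (w : Ω), π (k • w) = π w) (hπ : Function.Surjective π) :
    Nat.card X ≤ orbits K Ω := by
  refine Nat.card_le_card_of_surjective (Quotient.lift π ?_) fun x => ?_
  · rintro a b ⟨k, rfl⟩
    exact hinv k b
  · obtain ⟨w, rfl⟩ := hπ x
    exact ⟨Quotient.mk _ w, rfl⟩

theorem one_le_orbits (K Ω : Type*) [Group K] [MulAction K Ω] [Finite Ω] [Nonempty Ω] :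
    1 ≤ orbits K Ω := by
  haveI : Nonempty (Quotient (MulAction.orbitRel K Ω)) := ⟨Quotient.mk _ (Classical.arbitrary Ω)⟩
  exact Nat.card_pos

/-- Two orbits or more: split off an orbit. -/
theorem intransitive {G Ω : Type} [Group G] [Finite G] [MulAction G Ω] [FaithfulSMul G Ω] [Finite Ω]
    (IH : ∀ m < Nat.card Ω, Bound m) (hr : 2 ≤ orbits G Ω) :
    3 * compLen G + 4 * orbits G Ω ≤ 4 * Nat.card Ω := by
  classical
  haveI : Nontrivial (Quotient (MulAction.orbitRel G Ω)) :=
    Finite.one_lt_card_iff_nontrivial.mp hr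
  obtain ⟨q, q', hqq⟩ := exists_pair_ne (Quotient (MulAction.orbitRel G Ω))
  obtain ⟨w, rfl⟩ := Quotient.exists_rep q
  obtain ⟨w', rfl⟩ := Quotient.exists_rep q'
  let S : SubMulAction G Ω :=
    { carrier := (orbit G w)ᶜ
      smul_mem' := fun g x hx hgx => hx (by
        rwa [← MulAction.smul_orbit g w, Set.smul_mem_smul_set_iff] at hgx) }
  have hw' : w' ∉ orbit G w := fun h => hqq (Quotient.sound (MulAction.orbitRel_apply.mpr h)).symm
  haveI : Nonempty S := ⟨⟨w', hw'⟩⟩
  haveI : Nonempty (orbit G w) := ⟨⟨w, mem_orbit_self w⟩⟩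
  have hcard : Nat.card (orbit G w) + Nat.card S = Nat.card Ω :=
    (congrArg (· + _) (Nat.card_coe_set_eq (orbit G w))).trans
      ((congrArg (_ + ·) (Nat.card_coe_set_eq (orbit G w)ᶜ)).trans (Set.ncard_add_ncard_compl _))
  have hOpos : 0 < Nat.card (orbit G w) := Nat.card_pos
  have hSpos : 0 < Nat.card S := Nat.card_pos
  let f := MulAction.toPermHom G (orbit G w)
  haveI : FaithfulSMul f.ker S := by
    refine ⟨fun {k k'} h => Subtype.ext (eq_of_smul_eq_smul (α := Ω) fun x => ?_)⟩
    by_cases hx : x ∈ orbit G w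
    · have hk : ∀ k : f.ker, (k : G) • x = x := fun k => by
        have := Equiv.ext_iff.mp (MonoidHom.mem_ker.mp k.2) ⟨x, hx⟩
        exact congrArg Subtype.val this
      rw [hk k, hk k']
    · exact congrArg Subtype.val (h ⟨x, hx⟩)
  have hR := bound_of (G := f.range) (Ω := orbit G w) (IH _ (by omega))
  have hR1 := one_le_orbits f.range (orbit G w)
  have hK := bound_of (G := f.ker) (Ω := S) (IH _ (by omega))
  have horb : orbits G Ω ≤ orbits f.ker S + 1 := by
    let φ : Option (Quotient (MulAction.orbitRel f.ker S)) → Quotient (MulAction.orbitRel G Ω) :=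
      fun o => o.elim (Quotient.mk _ w) (Quotient.lift (fun s : S => Quotient.mk _ (s : Ω)) (by
        rintro a b ⟨k, rfl⟩
        exact Quotient.sound (MulAction.orbitRel_apply.mpr ⟨(k : G), rfl⟩)))
    have hφ : Function.Surjective φ := by
      intro q
      obtain ⟨x, rfl⟩ := Quotient.exists_rep q
      by_cases hx : x ∈ orbit G w
      · exact ⟨none, (Quotient.sound (MulAction.orbitRel_apply.mpr hx)).symm⟩
      · exact ⟨some (Quotient.mk _ ⟨x, hx⟩), rfl⟩
    have := Nat.card_le_card_of_surjective φ hφ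
    rwa [Finite.card_option] at this
  have hadd := compLen_le_ker_add_range f
  omega

/-- An imprimitive group: blocks and their kernel. -/
theorem imprimitive {G Ω : Type} [Group G] [Finite G] [MulAction G Ω] [FaithfulSMul G Ω] [Finite Ω]
    [IsPretransitive G Ω] (hn : ¬ IsPreprimitive G Ω) (IH : ∀ m < Nat.card Ω, Bound m) :
    3 * compLen G + 4 ≤ 4 * Nat.card Ω := by
  classical
  obtain ⟨B, hB, hBnt⟩ : ∃ B : Set Ω, IsBlock G B ∧ ¬ IsTrivialBlock B := by
    by_contra hcon
    push Not at hcon
    exact hn { isTrivialBlock_of_isBlock := fun {B} => hcon B }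
  rw [IsTrivialBlock, not_or, Set.not_subsingleton_iff] at hBnt
  obtain ⟨⟨b₀, hb₀, b₁, hb₁, hb01⟩, hBu⟩ := hBnt
  have huniq : ∀ (g g' : G) (x : Ω), x ∈ g • B → x ∈ g' • B → g • B = g' • B := fun g g' x hx hx' =>
    by_contra fun hne => Set.disjoint_left.mp (hB hne) hx hx'
  choose γ hγ using fun x : Ω => exists_smul_eq G b₀ x
  have hmem : ∀ x, x ∈ γ x • B := fun x => ⟨b₀, hb₀, hγ x⟩
  let π : Ω → orbit G B := fun x => ⟨γ x • B, mem_orbit B (γ x)⟩
  have hπ : ∀ (g : G) (x : Ω), x ∈ g • B → (π x : Set Ω) = g • B := fun g x hx =>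
    huniq _ _ x (hmem x) hx
  have hsurj : Function.Surjective π := by
    rintro ⟨_, g, rfl⟩
    exact ⟨g • b₀, Subtype.ext (hπ g _ (Set.smul_mem_smul_set hb₀))⟩
  let f := MulAction.toPermHom G (orbit G B)
  have hinv : ∀ (k : f.ker) (x : Ω), π (k • x) = π x := fun k x => by
    refine Subtype.ext (hπ (γ x) _ ?_)
    have h1 : (k : G) • (γ x • B) = γ x • B :=
      congrArg Subtype.val (Equiv.ext_iff.mp (MonoidHom.mem_ker.mp k.2) (π x))
    rw [← h1]
    exact Set.smul_mem_smul_set (hmem x)
  have hm := le_orbits π hinv hsurj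
  haveI : Nonempty (orbit G B) := ⟨⟨B, mem_orbit_self B⟩⟩
  have hpos : 0 < Nat.card (orbit G B) := Nat.card_pos
  have h2 : 2 ≤ Nat.card (orbit G B) := by
    by_contra hlt
    haveI : Subsingleton (orbit G B) := Finite.card_le_one_iff_subsingleton.mp (by omega)
    refine hBu (Set.eq_univ_of_forall fun x => ?_)
    have h3 : π x = ⟨B, mem_orbit_self B⟩ := Subsingleton.elim _ _
    have h4 : γ x • B = B := congrArg Subtype.val h3
    exact h4 ▸ hmem x
  have hlt : Nat.card (orbit G B) < Nat.card Ω := by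
    haveI := Fintype.ofFinite Ω
    haveI := Fintype.ofFinite (orbit G B)
    rw [Nat.card_eq_fintype_card, Nat.card_eq_fintype_card]
    refine Fintype.card_lt_of_surjective_not_injective π hsurj fun hinj => hb01 (hinj (Subtype.ext ?_))
    have hb : ∀ b ∈ B, (π b : Set Ω) = B := fun b hb =>
      (hπ 1 b (by rwa [one_smul])).trans (one_smul G B)
    rw [hb b₀ hb₀, hb b₁ hb₁]
  haveI : FaithfulSMul f.ker Ω := ⟨fun {k k'} h => Subtype.ext (eq_of_smul_eq_smul fun x => h x)⟩
  have hK := intransitive (G := f.ker) IH (by omega)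
  have hR := bound_of (G := f.range) (Ω := orbit G B) (IH _ hlt)
  have hR1 := one_le_orbits f.range (orbit G B)
  have hadd := compLen_le_ker_add_range f
  omega

theorem arith_affine {p k c : ℕ} (hp : 2 ≤ p) (hk : 2 ≤ k) (hpk : ¬(p = 2 ∧ k ≤ 3))
    (hc : 2 ^ c ≤ p ^ (k * k)) : 3 * (k + c) + 4 ≤ 4 * p ^ k := by
  obtain ⟨q, rfl⟩ := Nat.exists_eq_add_of_le (show 1 ≤ p by omega)
  have hq : 1 + q ≤ 2 ^ q := by have := @Nat.lt_two_pow_self q; omega
  have hcq : c ≤ q * (k * k) := by
    refine (Nat.pow_le_pow_iff_right (by norm_num : 1 < 2)).mp ?_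
    calc 2 ^ c ≤ (1 + q) ^ (k * k) := hc
      _ ≤ (2 ^ q) ^ (k * k) := Nat.pow_le_pow_left hq _
      _ = _ := by rw [← pow_mul]
  rcases eq_or_ne q 1 with rfl | hq1
  · have key : ∀ j, 4 ≤ j → 3 * j + 3 * (j * j) + 4 ≤ 4 * 2 ^ j := by
      intro j hj
      induction j, hj using Nat.le_induction with
      | base => norm_num
      | succ j hj ih =>
        have h4 : 4 * j ≤ j * j := Nat.mul_le_mul_right j hj
        rw [pow_succ]
        nlinarith
    have := key k (by omega)
    rw [show (1 + 1 : ℕ) = 2 from rfl]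
    omega
  · have hq2 : 2 ≤ q := by omega
    have key : ∀ j, 2 ≤ j → 3 * j + 3 * (q * (j * j)) + 4 ≤ 4 * (1 + q) ^ j := by
      intro j hj
      induction j, hj using Nat.le_induction with
      | base => nlinarith
      | succ j hj ih =>
        rw [pow_succ]
        have h1 : 4 * j * q ≤ q * (q * (j * j)) := by
          have h2 : 2 * 2 ≤ q * j := Nat.mul_le_mul hq2 hj
          nlinarith
        nlinarith [Nat.mul_le_mul_left q ih]
    have := key k hk
    nlinarith

theorem arith_power {s u : ℕ} (hu : 3 ≤ u) (hs : 2 ≤ s) : 8 * s * u + 6 * s + 4 ≤ 4 * (u + 1) ^ s := by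
  induction s, hs using Nat.le_induction with
  | base => nlinarith
  | succ s hs ih =>
    rw [pow_succ]
    have h1 := Nat.mul_le_mul_left u ih
    have h2 : 3 * (8 * s * u) ≤ u * (8 * s * u) := Nat.mul_le_mul_right _ hu
    have h3 : 2 * u ≤ s * u := Nat.mul_le_mul_right u hs
    nlinarith

theorem cardFactors_le_of_dvd {d m : ℕ} (h : d ∣ m) (hm : m ≠ 0) :
    ArithmeticFunction.cardFactors d ≤ ArithmeticFunction.cardFactors m := by
  obtain ⟨c, rfl⟩ := h
  rw [mul_ne_zero_iff] at hm
  rw [ArithmeticFunction.cardFactors_mul hm.1 hm.2]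
  omega

theorem cardFactors_le_six {d : ℕ} (h : d ∣ 5040) (hd : d ≤ 512) :
    ArithmeticFunction.cardFactors d ≤ 6 := by
  obtain ⟨e, he⟩ := h
  have hd0 : d ≠ 0 := fun h0 => by rw [h0, zero_mul] at he; norm_num at he
  have he0 : e ≠ 0 := fun h0 => by rw [h0, mul_zero] at he; norm_num at he
  have h8 : ArithmeticFunction.cardFactors 5040 = 8 := by
    rw [show (5040 : ℕ) = 2 ^ 4 * 3 ^ 2 * 5 * 7 from rfl,
      ArithmeticFunction.cardFactors_mul (by norm_num) (by norm_num),
      ArithmeticFunction.cardFactors_mul (by norm_num) (by norm_num),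
      ArithmeticFunction.cardFactors_mul (by norm_num) (by norm_num),
      ArithmeticFunction.cardFactors_apply_prime_pow Nat.prime_two,
      ArithmeticFunction.cardFactors_apply_prime_pow Nat.prime_three,
      ArithmeticFunction.cardFactors_apply_prime (by norm_num : Nat.Prime 5),
      ArithmeticFunction.cardFactors_apply_prime (by norm_num : Nat.Prime 7)]
  rw [he, ArithmeticFunction.cardFactors_mul hd0 he0] at h8
  have he9 : 9 < e := by nlinarith
  have : 2 ≤ ArithmeticFunction.cardFactors e := by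
    have hpos : 0 < ArithmeticFunction.cardFactors e :=
      ArithmeticFunction.cardFactors_pos_iff_one_lt.mpr (by omega)
    by_contra hlt
    have hprime : e.Prime := ArithmeticFunction.cardFactors_eq_one_iff_prime.mp (by omega)
    have hdvd : e ∣ 2 ^ 4 * 3 ^ 2 * 5 * 7 := ⟨d, by rw [mul_comm e d, ← he]; norm_num⟩
    rcases (Nat.Prime.dvd_mul hprime).mp hdvd with h | h
    · rcases (Nat.Prime.dvd_mul hprime).mp h with h | h
      · rcases (Nat.Prime.dvd_mul hprime).mp h with h | h
        · have := Nat.le_of_dvd (by norm_num) (hprime.dvd_of_dvd_pow h); omega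
        · have := Nat.le_of_dvd (by norm_num) (hprime.dvd_of_dvd_pow h); omega
      · have := Nat.le_of_dvd (by norm_num) h; omega
    · have := Nat.le_of_dvd (by norm_num) h; omega
  omega

/-- A homomorphism on `Fin k → T` is determined by the images of the factors. -/
theorem hom_ext_single {k : ℕ} {T M : Type*} [Group T] [Group M] {f g : (Fin k → T) →* M}
    (h : ∀ i t, f (Pi.mulSingle i t) = g (Pi.mulSingle i t)) : f = g := by
  ext x
  exact (Subgroup.pi_mem_of_mulSingle_mem (H := f.eqLocus g) x fun i => h i (x i))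

/-- With `N` transitive, the stabilizer of a point acts on `N` faithfully. -/
theorem conj_faithful {G Ω : Type*} [Group G] [MulAction G Ω] [FaithfulSMul G Ω] (N : Subgroup G) [N.Normal]
    [IsPretransitive N Ω] (a : Ω) {h h' : stabilizer G a}
    (heq : ∀ m : N, MulAut.conjNormal (h : G) m = MulAut.conjNormal (h' : G) m) : h = h' := by
  refine Subtype.ext (eq_of_smul_eq_smul (α := Ω) fun x => ?_)
  obtain ⟨m, rfl⟩ := exists_smul_eq N a x
  have h1 : (h : G) * (m : G) * (h : G)⁻¹ = (h' : G) * (m : G) * (h' : G)⁻¹ := by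
    simpa using congrArg Subtype.val (heq m)
  have h3 : ∀ g : stabilizer G a, (g : G) • (m : G) • a = ((g : G) * (m : G) * (g : G)⁻¹) • a := fun g => by
    rw [mul_smul, mul_smul, mem_stabilizer_iff.mp (inv_mem g.2)]
  show (h : G) • (m : G) • a = (h' : G) • (m : G) • a
  rw [h3, h3, h1]

/-- The minimal normal subgroup abelian: an affine group. -/
theorem primitive_comm {G Ω T : Type} [Group G] [Finite G] [MulAction G Ω] [FaithfulSMul G Ω] [Finite Ω]
    [Group T] [IsSimpleGroup T] (hcomm : ∀ x y : T, x * y = y * x) (N : Subgroup G) [N.Normal]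
    [IsPretransitive N Ω] {k : ℕ} (hk : 2 ≤ k) (e : N ≃* (Fin k → T)) (a : Ω) {c : ℕ}
    (hc : c ≤ k + compLen (stabilizer G a)) : 3 * c + 4 ≤ 4 * Nat.card Ω := by
  classical
  haveI : IsPretransitive G Ω :=
    ⟨fun x y => let ⟨m, hm⟩ := exists_smul_eq N x y; ⟨(m : G), hm⟩⟩
  haveI : Finite T := Finite.of_injective (fun t => e.symm (Pi.mulSingle ⟨0, by omega⟩ t))
    (e.symm.injective.comp (Pi.mulSingle_injective (M := fun _ => T) _))
  letI : CommGroup T := { (inferInstance : Group T) with mul_comm := hcomm }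
  have hp : (Nat.card T).Prime := IsSimpleGroup.prime_card
  have hNcomm : ∀ x y : N, x * y = y * x := fun x y => e.injective (by
    rw [map_mul, map_mul]; exact mul_comm _ _)
  have hstabN : stabilizer N a = ⊥ := by
    rw [eq_bot_iff]
    intro m hm
    rw [Subgroup.mem_bot]
    refine Subtype.ext (eq_of_smul_eq_smul (α := Ω) fun x => ?_)
    obtain ⟨m', rfl⟩ := exists_smul_eq N a x
    show m • m' • a = (1 : G) • m' • a
    rw [one_smul, ← mul_smul, hNcomm, mul_smul, mem_stabilizer_iff.mp hm]
  have hn : Nat.card Ω = Nat.card T ^ k := by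
    rw [← index_stabilizer_of_transitive N a, hstabN, Subgroup.index_bot, Nat.card_congr e.toEquiv,
      Nat.card_fun, Nat.card_fin]
  obtain ⟨t₀, ht₀⟩ := exists_ne (1 : T)
  let φ : stabilizer G a → (Fin k → N) :=
    fun h i => MulAut.conjNormal (h : G) (e.symm (Pi.mulSingle i t₀))
  have hφ : Function.Injective φ := by
    intro h h' hhh
    have key : (MulAut.conjNormal (h : G)).toMonoidHom.comp e.symm.toMonoidHom =
        (MulAut.conjNormal (h' : G)).toMonoidHom.comp e.symm.toMonoidHom := by
      refine hom_ext_single fun i t => ?_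
      haveI := Fact.mk hp
      obtain ⟨z, rfl⟩ := Subgroup.mem_zpowers_iff.mp
        (mem_zpowers_of_prime_card (g := t₀) (g' := t) rfl ht₀)
      rw [Pi.mulSingle_zpow, map_zpow, map_zpow]
      exact congrArg (· ^ z) (congrFun hhh i)
    refine conj_faithful N a fun m => ?_
    simpa using DFunLike.congr_fun key (e m)
  have hcard : Nat.card (stabilizer G a) ≤ Nat.card T ^ (k * k) := by
    refine (Nat.card_le_card_of_injective φ hφ).trans_eq ?_
    rw [Nat.card_fun, Nat.card_fin, Nat.card_congr e.toEquiv, Nat.card_fun, Nat.card_fin, ← pow_mul]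
  have hfact : Nat.card Ω * Nat.card (stabilizer G a) ∣ (Nat.card Ω).factorial := by
    rw [← Nat.card_perm, ← index_stabilizer_of_transitive G a, mul_comm, Subgroup.card_mul_index]
    exact Subgroup.card_dvd_of_injective (MulAction.toPermHom G Ω) MulAction.toPerm_injective
  by_cases hsmall : Nat.card T = 2 ∧ k ≤ 3
  · rcases (show k = 2 ∨ k = 3 by omega) with rfl | rfl
    · rw [hsmall.1] at hn
      rw [hn] at hfact ⊢
      have h6 : Nat.card (stabilizer G a) ∣ 6 :=
        Nat.dvd_of_mul_dvd_mul_left (by norm_num : 0 < 2 ^ 2) (by simpa [Nat.factorial] using hfact)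
      have := (compLen_le_cardFactors (G := stabilizer G a)).trans (cardFactors_le_of_dvd h6 (by norm_num))
      have h62 : ArithmeticFunction.cardFactors 6 = 2 := by
        rw [show (6 : ℕ) = 2 * 3 from rfl, ArithmeticFunction.cardFactors_mul (by norm_num) (by norm_num),
          ArithmeticFunction.cardFactors_apply_prime Nat.prime_two,
          ArithmeticFunction.cardFactors_apply_prime Nat.prime_three]
      norm_num
      omega
    · rw [hsmall.1] at hn hcard
      rw [hn] at hfact ⊢
      have h5040 : Nat.card (stabilizer G a) ∣ 5040 :=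
        Nat.dvd_of_mul_dvd_mul_left (by norm_num : 0 < 2 ^ 3) (by simpa [Nat.factorial] using hfact)
      have := (compLen_le_cardFactors (G := stabilizer G a)).trans
        (cardFactors_le_six h5040 (by simpa using hcard))
      norm_num
      omega
  · rw [hn]
    have := arith_affine hp.two_le hk hsmall ((two_pow_compLen_le (G := stabilizer G a)).trans hcard)
    omega

/-- The minimal normal subgroup a power of a non-abelian simple group with the stabilizer acting on
the non-trivial elements of the factors. -/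
theorem primitive_power {G Ω T : Type} [Group G] [Finite G] [MulAction G Ω] [FaithfulSMul G Ω] [Finite Ω]
    [Group T] [Finite T] [IsSimpleGroup T] (hna : ∃ x y : T, x * y ≠ y * x) (N : Subgroup G) [N.Normal]
    [IsPretransitive N Ω] {k : ℕ} (e : N ≃* (Fin k → T)) (a : Ω) {c s : ℕ}
    (hs : 2 ≤ s) (hks : k ≤ 2 * s) (hsn : Nat.card T ^ s ≤ Nat.card Ω)
    (hc : c ≤ k + compLen (stabilizer G a)) (IH : ∀ m < Nat.card Ω, Bound m) :
    3 * c + 4 ≤ 4 * Nat.card Ω := by
  classical
  have ht4 : 4 ≤ Nat.card T := by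
    by_contra hlt
    obtain ⟨x, y, hxy⟩ := hna
    have h1 : 1 < Nat.card T := Finite.one_lt_card
    have hp : (Nat.card T).Prime := by
      interval_cases h : Nat.card T
      · exact Nat.prime_two
      · exact Nat.prime_three
    haveI := Fact.mk hp
    haveI := isCyclic_of_prime_card (α := T) rfl
    letI := IsCyclic.commGroup (α := T)
    exact hxy (mul_comm x y)
  obtain ⟨u, hu⟩ := Nat.exists_eq_add_of_le (show 1 ≤ Nat.card T by omega)
  let Δ := {y : N // ∃ i t, t ≠ 1 ∧ e y = Pi.mulSingle i t}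
  have hcardΔ : Nat.card Δ ≤ k * u := by
    have h1 : Nat.card Δ ≤ Nat.card (Fin k × {t : T // t ≠ 1}) := by
      refine Nat.card_le_card_of_surjective
        (fun p => ⟨e.symm (Pi.mulSingle p.1 p.2.1), p.1, p.2.1, p.2.2, e.apply_symm_apply _⟩) ?_
      rintro ⟨y, i, t, ht, hy⟩
      exact ⟨(i, ⟨t, ht⟩), Subtype.ext (e.injective ((e.apply_symm_apply _).trans hy.symm))⟩
    haveI := Fintype.ofFinite T
    rw [Nat.card_prod, Nat.card_fin, Nat.card_eq_fintype_card (α := {t : T // t ≠ 1}),
      Fintype.card_subtype_compl, Fintype.card_subtype_eq, ← Nat.card_eq_fintype_card, hu] at h1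
    simpa using h1
  have hinv : ∀ g : G, ∀ y : N, (∃ i t, t ≠ 1 ∧ e y = Pi.mulSingle i t) →
      ∃ i t, t ≠ 1 ∧ e (MulAut.conjNormal g y) = Pi.mulSingle i t := by
    rintro g y ⟨i, t, ht, hy⟩
    let α : (Fin k → T) ≃* (Fin k → T) := e.symm.trans ((MulAut.conjNormal g).trans e)
    obtain ⟨σ, hσ, -⟩ := Power.exists_perm hna α
    have hα : e (MulAut.conjNormal g y) = α (Pi.mulSingle i t) := by
      rw [← hy]
      simp [α]
    refine ⟨σ i, α (Pi.mulSingle i t) (σ i), fun h1 => ht ?_, funext fun j => ?_⟩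
    · have h2 : α (Pi.mulSingle i t) = 1 := funext fun j => by
        by_cases hj : j = σ i
        · subst hj; exact h1
        · exact hσ i t j hj
      rwa [MulEquiv.map_eq_one_iff, Pi.mulSingle_eq_one_iff] at h2
    · rw [hα]
      by_cases hj : j = σ i
      · subst hj; rw [Pi.mulSingle_eq_same]
      · rw [Pi.mulSingle_eq_of_ne hj]; exact hσ i t j hj
  letI : MulAction (stabilizer G a) Δ :=
    { smul := fun h y => ⟨MulAut.conjNormal (h : G) y.1, hinv _ _ y.2⟩
      one_smul := fun y => Subtype.ext (by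
        show MulAut.conjNormal ((1 : stabilizer G a) : G) y.1 = y.1
        simp)
      mul_smul := fun h h' y => Subtype.ext (by
        show MulAut.conjNormal ((h * h' : stabilizer G a) : G) y.1 =
          MulAut.conjNormal (h : G) (MulAut.conjNormal (h' : G) y.1)
        rw [Subgroup.coe_mul, map_mul]; rfl) }
  haveI : FaithfulSMul (stabilizer G a) Δ := by
    refine ⟨fun {h h'} hh => ?_⟩
    have key : (MulAut.conjNormal (h : G)).toMonoidHom.comp e.symm.toMonoidHom =
        (MulAut.conjNormal (h' : G)).toMonoidHom.comp e.symm.toMonoidHom := by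
      refine hom_ext_single fun i t => ?_
      rcases eq_or_ne t 1 with rfl | ht
      · rw [Pi.mulSingle_one, map_one, map_one]
      · exact congrArg Subtype.val (hh ⟨e.symm (Pi.mulSingle i t), i, t, ht, e.apply_symm_apply _⟩)
    refine conj_faithful N a fun m => ?_
    simpa using DFunLike.congr_fun key (e m)
  have hA := arith_power (s := s) (show 3 ≤ u by omega) hs
  have hku : k * u ≤ 2 * s * u := Nat.mul_le_mul_right u hks
  rw [hu, add_comm 1 u] at hsn
  have hm : Nat.card Δ < Nat.card Ω := by nlinarith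
  have hb := bound_of (G := stabilizer G a) (Ω := Δ) (IH _ hm)
  nlinarith

/-- A primitive group. -/
theorem primitive {G Ω : Type} [Group G] [Finite G] [MulAction G Ω] [FaithfulSMul G Ω] [Finite Ω]
    [IsPreprimitive G Ω] (h2 : 2 ≤ Nat.card Ω) (IH : ∀ m < Nat.card Ω, Bound m) :
    3 * compLen G + 4 ≤ 4 * Nat.card Ω := by
  classical
  haveI : Nontrivial Ω := Finite.one_lt_card_iff_nontrivial.mp h2
  haveI : Nontrivial G := by
    obtain ⟨x, y, hxy⟩ := exists_pair_ne Ω
    obtain ⟨g, hg⟩ := exists_smul_eq G x y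
    exact ⟨g, 1, fun hg1 => hxy (by rw [← hg, hg1, one_smul])⟩
  obtain ⟨N, ⟨hNn, hNb⟩, hNmin⟩ := Set.exists_min_image {M : Subgroup G | M.Normal ∧ M ≠ ⊥}
    (fun M => Nat.card M) (Set.toFinite _) ⟨⊤, inferInstance, top_ne_bot⟩
  haveI := hNn
  have hmin : ∀ M : Subgroup G, M.Normal → M ≤ N → M = ⊥ ∨ M = N := fun M hM hle => by
    by_cases hb : M = ⊥
    · exact Or.inl hb
    · exact Or.inr (Subgroup.eq_of_le_of_card_ge hle (hNmin M ⟨hM, hb⟩))
  haveI : IsPretransitive N Ω := by
    refine IsQuasiPreprimitive.isPretransitive_of_normal (G := G) fun hfix => hNb ?_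
    rw [eq_bot_iff]
    intro m hm
    exact eq_of_smul_eq_smul (α := Ω) fun x => by
      rw [one_smul]
      exact mem_fixedPoints.mp (hfix ▸ Set.mem_univ x) ⟨m, hm⟩
  obtain ⟨T, _, k, hT, hk0, ⟨e⟩⟩ := exists_mulEquiv_pi_of_minimal_normal N hNb hmin
  haveI := hT
  haveI : Finite T := Finite.of_injective (fun t => e.symm (Pi.mulSingle ⟨0, hk0⟩ t))
    (e.symm.injective.comp (Pi.mulSingle_injective (M := fun _ => T) _))
  obtain ⟨a⟩ := (inferInstance : Nonempty Ω)
  set H := stabilizer G a with hH
  let ρ : H →* G ⧸ N := (QuotientGroup.mk' N).comp H.subtype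
  have hρ : Function.Surjective ρ := by
    intro q
    obtain ⟨g, rfl⟩ := QuotientGroup.mk'_surjective N q
    obtain ⟨m, hm⟩ := exists_smul_eq N a (g • a)
    refine ⟨⟨(m : G)⁻¹ * g, ?_⟩, ?_⟩
    · rw [hH, mem_stabilizer_iff, mul_smul, ← hm, Subgroup.smul_def, inv_smul_smul]
    · show QuotientGroup.mk' N ((m : G)⁻¹ * g) = _
      rw [map_mul, map_inv]
      simp
  have hG := compLen_le_ker_add (QuotientGroup.mk' N) (QuotientGroup.mk'_surjective N)
  rw [compLen_congr (MulEquiv.subgroupCongr (QuotientGroup.ker_mk' N)), compLen_congr e] at hG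
  have hρc := compLen_ker_add_le ρ hρ
  have hcN := compLen_pi_le (T := T) k
  haveI hHfaith : FaithfulSMul H Ω := ⟨fun {x y} h => Subtype.ext (eq_of_smul_eq_smul fun w => h w)⟩
  have hH2 : 2 ≤ orbits H Ω := by
    refine le_trans ?_ (le_orbits (fun x : Ω => decide (x = a)) (fun h x => ?_) ?_)
    · simp
    · simp only [decide_eq_decide]
      constructor
      · intro hx
        calc x = (h⁻¹ : H) • (h • x) := (inv_smul_smul h x).symm
          _ = (h⁻¹ : H) • a := by rw [hx]
          _ = a := mem_stabilizer_iff.mp (h⁻¹).2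
      · rintro rfl; exact mem_stabilizer_iff.mp h.2
    · intro b
      cases b with
      | true => exact ⟨a, by simp⟩
      | false => obtain ⟨x, hx⟩ := exists_ne a; exact ⟨x, by simp [hx]⟩
  have hHc := intransitive (G := H) IH hH2
  rcases Nat.lt_or_ge k 2 with hk | hk
  · omega
  by_cases hcomm : ∀ x y : T, x * y = y * x
  · exact primitive_comm hcomm N hk e a (show compLen G ≤ k + compLen H by omega)
  push Not at hcomm
  -- the point stabilizer in `N`
  let V : Subgroup (Fin k → T) := (H.subgroupOf N).comap e.symm.toMonoidHom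
  have hVmem : ∀ v, v ∈ V ↔ ((e.symm v : N) : G) ∈ H := fun v => Iff.rfl
  have hkerN : ∀ x : ρ.ker, ((x : H) : G) ∈ N := fun x =>
    (QuotientGroup.eq_one_iff _).mp (MonoidHom.mem_ker.mp x.2)
  let eV : ρ.ker ≃* V :=
    { toFun := fun x => ⟨e ⟨_, hkerN x⟩, by rw [hVmem, e.symm_apply_apply]; exact (x : H).2⟩
      invFun := fun v => ⟨⟨((e.symm v.1 : N) : G), v.2⟩,
        (QuotientGroup.eq_one_iff _).mpr (e.symm v.1).2⟩
      left_inv := fun x => by ext; simp
      right_inv := fun v => by ext1; exact e.apply_symm_apply _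
      map_mul' := fun x y => Subtype.ext (by
        show e ⟨_, _⟩ = e ⟨_, _⟩ * e ⟨_, _⟩
        rw [← map_mul]; rfl) }
  have hkerV : compLen ρ.ker = compLen V := compLen_congr eV
  let 𝒜 : Set ((Fin k → T) ≃* (Fin k → T)) :=
    Set.range fun h : H => e.symm.trans ((MulAut.conjNormal (h : G)).trans e)
  have hA : ∀ (h : H) (v : Fin k → T),
      (e.symm ((e.symm.trans ((MulAut.conjNormal (h : G)).trans e)) v) : G)
      = (h : G) * (e.symm v : G) * (h : G)⁻¹ := fun h v => by simp
  have hV : ∀ α ∈ 𝒜, ∀ v ∈ V, α v ∈ V := by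
    rintro _ ⟨h, rfl⟩ v hv
    rw [hVmem, hA]
    exact H.mul_mem (H.mul_mem h.2 hv) (H.inv_mem h.2)
  have hirr : ∀ U : Finset (Fin k), (∀ α ∈ 𝒜, ∀ x ∈ Power.supp k T U, α x ∈ Power.supp k T U) →
      U = ∅ ∨ U = Finset.univ := by
    intro U hU
    let M : Subgroup G := ((Power.supp k T U).comap e.toMonoidHom).map N.subtype
    have hM : M.Normal := by
      constructor
      rintro _ ⟨y, hy, rfl⟩ g
      obtain ⟨m, hm⟩ := exists_smul_eq N a (g • a)
      have hh : (m : G)⁻¹ * g ∈ H := by
        rw [hH, mem_stabilizer_iff, mul_smul, ← hm, Subgroup.smul_def, inv_smul_smul]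
      let y' : N := MulAut.conjNormal ((m : G)⁻¹ * g) y
      have hy' : e y' ∈ Power.supp k T U := by
        have := hU _ ⟨⟨_, hh⟩, rfl⟩ (e y) hy
        simpa [y'] using this
      refine ⟨m * y' * m⁻¹, ?_, ?_⟩
      · show e (m * y' * m⁻¹) ∈ Power.supp k T U
        rw [map_mul, map_mul, map_inv]
        exact Subgroup.Normal.conj_mem inferInstance _ hy' _
      · simp [y', mul_assoc]
    obtain ⟨t, ht⟩ := exists_ne (1 : T)
    rcases hmin M hM (by rintro _ ⟨y, -, rfl⟩; exact y.2) with hb | hb
    · left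
      by_contra hne
      obtain ⟨i, hi⟩ := Finset.nonempty_iff_ne_empty.mpr hne
      have : ((e.symm (Pi.mulSingle i t) : N) : G) ∈ M := ⟨_, by
        show e (e.symm _) ∈ Power.supp k T U
        rw [e.apply_symm_apply]
        exact fun j hj => Pi.mulSingle_eq_of_ne (by rintro rfl; exact hj hi) _, rfl⟩
      rw [hb, Subgroup.mem_bot, OneMemClass.coe_eq_one, MulEquiv.map_eq_one_iff,
        Pi.mulSingle_eq_one_iff] at this
      exact ht this
    · right
      refine Finset.eq_univ_iff_forall.mpr fun i => ?_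
      by_contra hi
      have : ((e.symm (Pi.mulSingle i t) : N) : G) ∈ M := by
        rw [hb]; exact (e.symm (Pi.mulSingle i t)).2
      obtain ⟨y, hy, hye⟩ := this
      have hy1 : e y ∈ Power.supp k T U := hy
      rw [show y = e.symm (Pi.mulSingle i t) from Subtype.ext hye] at hy1
      rw [e.apply_symm_apply] at hy1
      exact ht (by simpa using hy1 i hi)
  have hmax : ∀ P : Subgroup (Fin k → T), V ≤ P → (∀ α ∈ 𝒜, ∀ x ∈ P, α x ∈ P) → P = V ∨ P = ⊤ := by
    intro P hVP hP
    let M : Subgroup G := (P.comap e.toMonoidHom).map N.subtype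
    have hconj : ∀ h ∈ H, ∀ y ∈ M, h * y * h⁻¹ ∈ M := by
      rintro h hh _ ⟨y, hy, rfl⟩
      have h1 := hP _ ⟨⟨h, hh⟩, rfl⟩ (e y) hy
      refine ⟨MulAut.conjNormal h y, ?_, by simp⟩
      show e (MulAut.conjNormal h y) ∈ P
      simpa using h1
    have hnorm : H ≤ Subgroup.normalizer (M : Set G) := fun h hh =>
      Subgroup.mem_normalizer_iff.mpr fun y =>
        ⟨hconj h hh y, fun hy => by simpa [mul_assoc] using hconj h⁻¹ (H.inv_mem hh) _ hy⟩
    rcases eq_or_lt_of_le (le_sup_left : H ≤ H ⊔ M) with heq | hlt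
    · left
      refine le_antisymm (fun x hx => ?_) hVP
      rw [hVmem, heq]
      exact Subgroup.mem_sup_right ⟨e.symm x, by
        show e (e.symm x) ∈ P
        rwa [e.apply_symm_apply], rfl⟩
    · right
      have htop := (IsPreprimitive.isCoatom_stabilizer_of_isPreprimitive G a).2 _ hlt
      refine eq_top_iff.mpr fun x _ => ?_
      have hx : ((e.symm x : N) : G) ∈ ((H ⊔ M : Subgroup G) : Set G) := by
        rw [htop]; exact Subgroup.mem_top _
      rw [Subgroup.coe_mul_of_left_le_normalizer_right H M hnorm] at hx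
      obtain ⟨h, hh, _, ⟨y, hy, rfl⟩, hhy⟩ := hx
      have hhy' : h * (y : G) = ((e.symm x : N) : G) := hhy
      have hhN : h = ((e.symm x * y⁻¹ : N) : G) := by
        rw [Subgroup.coe_mul, InvMemClass.coe_inv, ← hhy', mul_inv_cancel_right]
      have h1 : e (e.symm x * y⁻¹) ∈ P :=
        hVP ((hVmem _).mpr (by rw [e.symm_apply_apply, ← hhN]; exact hh))
      have h2 := P.mul_mem h1 hy
      simpa using h2
  rcases Power.dichotomy hcomm V 𝒜 hV hirr hmax with hle | ⟨s, hs, hks, hsV⟩
  · omega
  refine primitive_power hcomm N e a hs hks ?_ (show compLen G ≤ k + compLen H by omega) IH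
  have hVcard : Nat.card V = Nat.card (stabilizer N a) := Nat.card_congr
    { toFun := fun v => ⟨e.symm v.1, v.2⟩
      invFun := fun m => ⟨e m.1, (hVmem _).mpr (by rw [e.symm_apply_apply]; exact m.2)⟩
      left_inv := fun v => Subtype.ext (e.apply_symm_apply _)
      right_inv := fun m => Subtype.ext (e.symm_apply_apply _) }
  have hidx : Nat.card Ω * Nat.card V = Nat.card T ^ k := by
    rw [← index_stabilizer_of_transitive N a, hVcard, mul_comm, Subgroup.card_mul_index,
      Nat.card_congr e.toEquiv, Nat.card_fun, Nat.card_fin]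
  rw [← hidx] at hsV
  exact Nat.le_of_mul_le_mul_right hsV Nat.card_pos

/-- The bound holds in every degree. -/
theorem bound (n : ℕ) : Bound n := by
  induction n using Nat.strong_induction_on with
  | _ n ih =>
    intro G
    rcases Nat.lt_or_ge n 2 with hn | hn
    · haveI : Subsingleton (Equiv.Perm (Fin n)) := by
        haveI : Subsingleton (Fin n) := Fin.subsingleton_iff_le_one.mpr (by omega)
        infer_instance
      have h0 : compLen G = 0 := compLen_eq_zero (Nat.card_of_subsingleton (1 : G))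
      have h1 : orbits G (Fin n) ≤ n :=
        (Nat.card_le_card_of_surjective (Quotient.mk _) Quotient.mk_surjective).trans_eq (Nat.card_fin n)
      omega
    have IH : ∀ m < Nat.card (Fin n), Bound m := fun m hm => ih m (by rwa [Nat.card_fin] at hm)
    have h2 : 2 ≤ Nat.card (Fin n) := by rwa [Nat.card_fin]
    rcases Nat.lt_or_ge (orbits G (Fin n)) 2 with hr | hr
    swap
    · have := intransitive (G := G) IH hr
      rwa [Nat.card_fin] at this
    haveI : Subsingleton (Quotient (MulAction.orbitRel G (Fin n))) :=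
      Finite.card_le_one_iff_subsingleton.mp (Nat.lt_succ_iff.mp hr)
    haveI : IsPretransitive G (Fin n) :=
      ⟨fun x y => MulAction.orbitRel_apply.mp
        (Quotient.exact (Subsingleton.elim (Quotient.mk _ y) (Quotient.mk _ x)))⟩
    have key : 3 * compLen G + 4 ≤ 4 * Nat.card (Fin n) := by
      by_cases hp : IsPreprimitive G (Fin n)
      · exact primitive h2 IH
      · exact imprimitive hp IH
    rw [Nat.card_fin] at key
    omega

/-- The composition length of a permutation group of degree `n` with `r` orbits. -/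
theorem compLen_bound (G Ω : Type*) [Group G] [Finite G] [MulAction G Ω] [FaithfulSMul G Ω] [Finite Ω] :
    3 * compLen G + 4 * orbits G Ω ≤ 4 * Nat.card Ω :=
  bound_of (bound _)

end CfsgLib.AltGroups.CompBound
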