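import Cfsg.Agent.Lib.AltGroups.Marggraf

/-!
A quasiprimitive group with a Jordan set of fewer than half of the points is primitive, hence contains the
alternating group.
-/

set_option autoImplicit false
set_option linter.style.haveILetI false
set_option linter.unusedSectionVars false

open MulAction Equiv

namespace CfsgLib.AltGroups.Marggraf

universe u v

variable {G : Type u} [Group G] [Finite G] {Ω : Type v} [MulAction G Ω] [FaithfulSMul G Ω]
  [Fintype Ω] [DecidableEq Ω]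

/-- Quasiprimitive with a small Jordan set is primitive. -/
theorem isPreprimitive_of_quasiprimitive
    (hqp : ∀ N : Subgroup G, N.Normal → N ≠ ⊥ → IsPretransitive N Ω)
    {Γ : Finset Ω} (h1 : 1 < Γ.card) (h2 : 2 * Γ.card < Fintype.card Ω) (hJ : Jordan G Γ) :
    IsPreprimitive G Ω := by
  classical
  obtain ⟨x₀, hx₀, y₀, hy₀, hxy₀⟩ := Finset.one_lt_card.mp h1
  obtain ⟨j, hj, hjx⟩ := hJ x₀ hx₀ y₀ hy₀
  have htop : (⊤ : Subgroup G) ≠ ⊥ := by
    intro e
    refine hxy₀ ?_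
    have : j = 1 := Subgroup.mem_bot.mp (e ▸ Subgroup.mem_top j)
    rw [← hjx, this, one_smul]
  haveI : IsPretransitive G Ω :=
    haveI := hqp ⊤ inferInstance htop
    ⟨fun x y => let ⟨g, hg⟩ := exists_smul_eq (⊤ : Subgroup G) x y; ⟨(g : G), hg⟩⟩
  haveI : Nontrivial Ω := ⟨x₀, y₀, hxy₀⟩
  obtain ⟨a, ha⟩ : ∃ a, a ∉ Γ := by
    by_contra hcon
    push Not at hcon
    rw [Finset.eq_univ_iff_forall.mpr hcon, Finset.card_univ] at h2
    omega
  rw [← isCoatom_stabilizer_iff_preprimitive G a]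
  have hne : stabilizer G a ≠ ⊤ := fun e => hxy₀ (by
    obtain ⟨g, hg⟩ := exists_smul_eq G a x₀
    obtain ⟨g', hg'⟩ := exists_smul_eq G a y₀
    rw [← hg, ← hg', mem_stabilizer_iff.mp (e ▸ Subgroup.mem_top g : g ∈ stabilizer G a),
      mem_stabilizer_iff.mp (e ▸ Subgroup.mem_top g' : g' ∈ stabilizer G a)])
  rcases IsCoatomic.eq_top_or_exists_le_coatom (stabilizer G a) with h | ⟨M, hM, hle⟩
  · exact absurd h hne
  rcases eq_or_lt_of_le hle with heq | hlt
  · exact heq ▸ hM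
  exfalso
  obtain ⟨m₀, hm₀, hm₀a⟩ := SetLike.exists_of_lt hlt
  have hm₀' : m₀ • a ≠ a := hm₀a
  -- the blocks
  haveI hQp : IsPreprimitive G (G ⧸ M) := by
    haveI : Nontrivial (G ⧸ M) := by
      obtain ⟨g, -, hg⟩ := SetLike.exists_of_lt (lt_top_iff_ne_top.mpr hM.ne_top)
      exact ⟨(g : G ⧸ M), ((1 : G) : G ⧸ M), fun e => hg (by
        have := QuotientGroup.eq.mp e.symm
        simpa using this)⟩
    rw [← isCoatom_stabilizer_iff_preprimitive G (((1 : G) : G ⧸ M))]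
    rwa [MulAction.stabilizer_quotient]
  choose γ hγ using fun x : Ω => exists_smul_eq G a x
  let π : Ω → G ⧸ M := fun x => (γ x : G ⧸ M)
  have hπ : ∀ (g : G) (x : Ω), g • a = x → π x = (g : G ⧸ M) := fun g x hgx => by
    refine QuotientGroup.eq.mpr (hle ?_)
    rw [mem_stabilizer_iff, mul_smul, hgx, inv_smul_eq_iff, hγ]
  have hπs : ∀ (g : G) (x : Ω), π (g • x) = g • π x := fun g x => by
    rw [hπ (g * γ x) (g • x) (by rw [mul_smul, hγ]), MulAction.Quotient.smul_coe, smul_eq_mul]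
  have hsurj : Function.Surjective π := fun q => by
    obtain ⟨g, rfl⟩ := QuotientGroup.mk_surjective q
    exact ⟨g • a, hπ g _ rfl⟩
  have hfib : m₀ • a ≠ a ∧ π (m₀ • a) = π a := ⟨hm₀', by
    rw [hπ m₀ _ rfl, hπ 1 a (one_smul _ _)]
    exact QuotientGroup.eq.mpr (by simpa using hm₀)⟩
  haveI : Nontrivial (G ⧸ M) := by
    obtain ⟨g, -, hg⟩ := SetLike.exists_of_lt (lt_top_iff_ne_top.mpr hM.ne_top)
    exact ⟨(g : G ⧸ M), ((1 : G) : G ⧸ M), fun e => hg (by
      have := QuotientGroup.eq.mp e.symm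
      simpa using this)⟩
  haveI : FaithfulSMul G (G ⧸ M) := by
    have hker : (MulAction.toPermHom G (G ⧸ M)).ker = ⊥ := by
      by_contra hne'
      haveI := hqp _ inferInstance hne'
      obtain ⟨q, q', hqq⟩ := exists_pair_ne (G ⧸ M)
      obtain ⟨u, rfl⟩ := hsurj q
      obtain ⟨u', rfl⟩ := hsurj q'
      obtain ⟨k, hk⟩ := exists_smul_eq (MulAction.toPermHom G (G ⧸ M)).ker u u'
      refine hqq ?_
      rw [← hk, Subgroup.smul_def, hπs]
      exact (Equiv.ext_iff.mp (MonoidHom.mem_ker.mp k.2) (π u)).symm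
    exact ⟨fun {g g'} h => (MonoidHom.ker_eq_bot_iff _).mp hker (Equiv.ext h)⟩
  -- no block meets both `Γ` and its complement
  have hsep : ∀ p ∈ Γ, ∀ q, q ∉ Γ → π p ≠ π q := by
    intro p hp q hq heq
    have hΓπ : ∀ p' ∈ Γ, π p' = π q := by
      intro p' hp'
      obtain ⟨g, hg, hgp⟩ := hJ p hp p' hp'
      rw [← hgp, hπs, heq, ← hπs, hg q hq]
    have hjS : ∀ s : G ⧸ M, j • s = (1 : G) • s := by
      intro s
      rw [one_smul]
      obtain ⟨u, rfl⟩ := hsurj s
      by_cases hu : u ∈ Γ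
      · rw [hΓπ u hu, ← hπs, hj q hq]
      · rw [← hπs, hj u hu]
    refine hxy₀ ?_
    rw [← hjx, eq_of_smul_eq_smul hjS, one_smul]
  -- all blocks have the same size
  letI : Fintype (G ⧸ M) := Fintype.ofFinite _
  let F : G ⧸ M → Finset Ω := fun s => Finset.univ.filter fun u => π u = s
  have hFc : ∀ s, (F s).card = (F (π a)).card := by
    intro s
    obtain ⟨g, rfl⟩ := exists_smul_eq G (π a) s
    refine (Finset.card_bij (fun u _ => g • u) (fun u hu => ?_) (fun _ _ _ _ h => MulAction.injective g h)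
      (fun u hu => ⟨g⁻¹ • u, ?_, smul_inv_smul g u⟩)).symm
    · simp only [F, Finset.mem_filter, Finset.mem_univ, true_and] at hu ⊢
      rw [hπs, hu]
    · simp only [F, Finset.mem_filter, Finset.mem_univ, true_and] at hu ⊢
      rw [hπs, hu, inv_smul_smul]
  set b := (F (π a)).card with hb
  have hn : Fintype.card Ω = Fintype.card (G ⧸ M) * b := by
    rw [← Finset.card_univ, Finset.card_eq_sum_card_fiberwise (f := π) (t := Finset.univ)
      (fun u _ => Finset.mem_univ _)]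
    rw [Finset.sum_const_nat (m := b) (fun s _ => hFc s), Finset.card_univ]
  let Γb : Finset (G ⧸ M) := Γ.image π
  have hΓn : Γ.card = Γb.card * b := by
    rw [Finset.card_eq_sum_card_fiberwise (f := π) (t := Γb) (fun u hu => Finset.mem_image_of_mem π hu)]
    refine Finset.sum_const_nat fun s hs => ?_
    obtain ⟨p, hp, rfl⟩ := Finset.mem_image.mp hs
    rw [← hFc (π p)]
    congr 1
    ext u
    simp only [F, Finset.mem_filter, Finset.mem_univ, true_and]
    exact ⟨fun h => h.2, fun h => ⟨by_contra fun hu => hsep p hp u hu h.symm, h⟩⟩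
  have hbpos : 0 < b := Finset.card_pos.mpr ⟨a, by simp [F]⟩
  have hΓb2 : 1 < Γb.card := by
    by_contra hlt'
    have hjS : ∀ s : G ⧸ M, j • s = (1 : G) • s := by
      intro s
      rw [one_smul]
      obtain ⟨u, rfl⟩ := hsurj s
      by_cases hu : u ∈ Γ
      · have hju : j • u ∈ Γ := by
          by_contra h
          have h' : j • u = u := MulAction.injective j (hj _ h)
          rw [h'] at h
          exact h hu
        rw [← hπs]
        exact Finset.card_le_one.mp (show Γb.card ≤ 1 by omega) _ (Finset.mem_image_of_mem π hju) _ (Finset.mem_image_of_mem π hu)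
      · rw [← hπs, hj u hu]
    refine hxy₀ ?_
    rw [← hjx, eq_of_smul_eq_smul hjS, one_smul]
  have hΓb : 2 * Γb.card < Fintype.card (G ⧸ M) := by
    rw [hn, hΓn, ← mul_assoc] at h2
    exact Nat.lt_of_mul_lt_mul_right h2
  have hJb : Jordan G Γb := by
    intro s hs s' hs'
    obtain ⟨p, hp, rfl⟩ := Finset.mem_image.mp hs
    obtain ⟨p', hp', rfl⟩ := Finset.mem_image.mp hs'
    obtain ⟨g, hg, hgp⟩ := hJ p hp p' hp'
    refine ⟨g, fun z hz => ?_, by rw [← hπs, hgp]⟩
    obtain ⟨u, rfl⟩ := hsurj z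
    rw [← hπs, hg u (fun h => hz (Finset.mem_image_of_mem π h))]
  have hA := alternating_le_of_jordan _ rfl hQp hΓb2 hΓb hJb
  set φ := MulAction.toPermHom G (G ⧸ M) with hφ
  -- the elements fixing the block of `a` pointwise
  let Kf : Subgroup G := fixingSubgroup G (↑(F (π a)) : Set Ω)
  have hKf : ∀ g, g ∈ Kf ↔ ∀ u, π u = π a → g • u = u := fun g => by
    rw [mem_fixingSubgroup_iff]
    simp [F]
  have hKB : ∀ g ∈ Kf, φ g (π a) = π a := fun g hg => by
    show g • π a = π a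
    rw [← hπs, (hKf g).mp hg a rfl]
  have hKconj : ∀ g k : G, φ g (π a) = π a → k ∈ Kf → g * k * g⁻¹ ∈ Kf := by
    intro g k hg hk
    rw [hKf]
    intro u hu
    have h1 : π (g⁻¹ • u) = π a := by
      rw [hπs, hu, inv_smul_eq_iff]
      exact hg.symm
    rw [mul_smul, mul_smul, (hKf k).mp hk _ h1, smul_inv_smul]
  let Kb : Subgroup (Perm (G ⧸ M)) := Kf.map φ
  have hKbB : ∀ σ ∈ Kb, σ (π a) = π a := by
    rintro _ ⟨k, hk, rfl⟩
    exact hKB k hk
  -- one three-cycle
  obtain ⟨j', hj'J, hj'ne⟩ : ∃ j' : G, (∀ z ∉ Γ, j' • z = z) ∧ ∃ s, φ j' s ≠ s := by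
    refine ⟨j, hj, ?_⟩
    by_contra hcon
    push Not at hcon
    refine hxy₀ ?_
    have hj1 : j = 1 := eq_of_smul_eq_smul (α := G ⧸ M) fun s => by rw [one_smul]; exact hcon s
    rw [← hjx, hj1, one_smul]
  obtain ⟨p, hp⟩ := hj'ne
  have hpΓ : p ∈ Γb := by
    by_contra h
    refine hp ?_
    obtain ⟨u, rfl⟩ := hsurj p
    show j' • π u = π u
    rw [← hπs, hj'J u fun hu => h (Finset.mem_image_of_mem π hu)]
  have haΓb : π a ∉ Γb := fun h => by
    obtain ⟨p', hp', he⟩ := Finset.mem_image.mp h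
    exact hsep p' hp' a ha he
  have hj'fix : ∀ s, s ∉ Γb → φ j' s = s := fun s hs => by
    obtain ⟨u, rfl⟩ := hsurj s
    show j' • π u = π u
    rw [← hπs, hj'J u fun hu => hs (Finset.mem_image_of_mem π hu)]
  have hj'K : j' ∈ Kf := (hKf j').mpr fun u hu =>
    hj'J u fun h => hsep u h a ha hu
  obtain ⟨d, hd, e, he, hde⟩ : ∃ d ∈ (Finset.univ \ Γb).erase (π a), ∃ e ∈ (Finset.univ \ Γb).erase (π a), d ≠ e :=
    Finset.one_lt_card.mp (by
      rw [Finset.card_erase_of_mem (Finset.mem_sdiff.mpr ⟨Finset.mem_univ _, haΓb⟩), Finset.card_univ_sdiff]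
      omega)
  simp only [Finset.mem_erase, Finset.mem_sdiff, Finset.mem_univ, true_and] at hd he
  have hpd : p ≠ d := fun h => hd.2 (h ▸ hpΓ)
  have hpe : p ≠ e := fun h => he.2 (h ▸ hpΓ)
  have hpa : p ≠ π a := fun h => haΓb (h ▸ hpΓ)
  obtain ⟨c, hc⟩ := hA ((Perm.isThreeCycle_swap_mul_swap_same hpd hpe hde).mem_alternatingGroup)
  have hc' : φ c = swap p d * swap p e := hc
  have hcB : φ c (π a) = π a := by
    rw [hc', Perm.mul_apply, swap_apply_of_ne_of_ne hpa.symm he.1.symm, swap_apply_of_ne_of_ne hpa.symm hd.1.symm]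
  have hτK : φ (j' * c * j'⁻¹ * c⁻¹) ∈ Kb := ⟨_, by
    rw [mul_assoc j' c, mul_assoc j' (c * _)]
    exact Kf.mul_mem hj'K (hKconj c _ hcB (Kf.inv_mem hj'K)), rfl⟩
  have hτ : Perm.IsThreeCycle (φ (j' * c * j'⁻¹ * c⁻¹)) := by
    rw [map_mul, map_mul, map_mul, map_inv, map_inv]
    refine MinimalDegree.isThreeCycle_commutator (φ j') (φ c) p hp ?_ ?_
    · rw [hc', Perm.mul_apply, swap_apply_left, swap_apply_of_ne_of_ne hpe.symm hde.symm]
      exact hpe.symm
    · intro z hz hz'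
      by_contra hzp
      have hzΓ : z ∈ Γb := by
        by_contra h
        exact hz (hj'fix z h)
      refine hz' ?_
      rw [hc', Perm.mul_apply, swap_apply_of_ne_of_ne hzp (fun h => he.2 (by rw [← h]; exact hzΓ)),
        swap_apply_of_ne_of_ne hzp (fun h => hd.2 (by rw [← h]; exact hzΓ))]
  set τ := φ (j' * c * j'⁻¹ * c⁻¹) with hτdef
  obtain ⟨x₁, hx₁⟩ : ∃ x₁, x₁ ∈ τ.support := by
    apply Finset.card_pos.mp
    rw [hτ.card_support]; omega
  have hτeq := (hτ.eq_swap_mul_swap_iff_mem_support).mpr hx₁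
  set y₁ := τ x₁ with hy₁
  set z₁ := τ y₁ with hz₁
  have hτB := hKbB τ hτK
  have hx₁B : x₁ ≠ π a := fun h => Perm.mem_support.mp hx₁ (h ▸ hτB)
  have hy₁B : y₁ ≠ π a := fun h => hx₁B (τ.injective (h.trans hτB.symm))
  have hz₁B : z₁ ≠ π a := fun h => hy₁B (τ.injective (h.trans hτB.symm))
  have hx₁y₁ : x₁ ≠ y₁ := Ne.symm (Perm.mem_support.mp hx₁)
  have hy₁z₁ : y₁ ≠ z₁ := fun h => hx₁y₁ (τ.injective h)
  have hx₁z₁ : x₁ ≠ z₁ := by
    intro h
    have h1 := hτ.orderOf
    have h2 : (τ ^ 3) x₁ = x₁ := by rw [← h1, pow_orderOf_eq_one]; rfl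
    have h3 : (τ ^ 3) x₁ = τ (τ (τ x₁)) := rfl
    rw [h3, ← hy₁, ← hz₁, ← h] at h2
    exact hx₁y₁ (hy₁.trans h2).symm
  -- all three-cycles fixing the block of `a`
  have hT : ∀ x y z : G ⧸ M, x ≠ π a → y ≠ π a → z ≠ π a → x ≠ y → y ≠ z → x ≠ z →
      swap x y * swap y z ∈ Kb := by
    intro x y z hx hy hz hxy hyz hxz
    obtain ⟨σ, hσ⟩ := exists_map (G := Perm (G ⧸ M)) (Equiv.Perm.isMultiplyPretransitive (G ⧸ M) 4)
      ⟨![π a, x₁, y₁, z₁], fun i k => by
        fin_cases i <;> fin_cases k <;> simp [hx₁B, hy₁B, hz₁B, hx₁y₁, hy₁z₁, hx₁z₁, hx₁B.symm, hy₁B.symm,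
          hz₁B.symm, hx₁y₁.symm, hy₁z₁.symm, hx₁z₁.symm]⟩
      ⟨![π a, x, y, z], fun i k => by
        fin_cases i <;> fin_cases k <;> simp [hx, hy, hz, hxy, hyz, hxz, hx.symm, hy.symm,
          hz.symm, hxy.symm, hyz.symm, hxz.symm]⟩
    have hσa : σ (π a) = π a := hσ 0
    have hσx : σ x₁ = x := hσ 1
    have hσy : σ y₁ = y := hσ 2
    have hσz : σ z₁ = z := hσ 3
    have hconj : ∀ ρ : Perm (G ⧸ M), Perm.sign ρ = 1 → ρ (π a) = π a →
        swap (ρ x₁) (ρ y₁) * swap (ρ y₁) (ρ z₁) ∈ Kb := by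
      intro ρ hρ hρa
      obtain ⟨g, hg⟩ := hA (Equiv.Perm.mem_alternatingGroup.mpr hρ)
      obtain ⟨k, hk, hkτ⟩ := hτK
      have hg' : φ g = ρ := hg
      refine ⟨g * k * g⁻¹, hKconj g k (by rw [hg']; exact hρa) hk, ?_⟩
      rw [map_mul, map_mul, map_inv, hkτ, hg', Equiv.swap_apply_apply, Equiv.swap_apply_apply, hτeq]
      group
    rcases Int.units_eq_one_or (Perm.sign σ) with hs | hs
    · have := hconj σ hs hσa
      rwa [hσx, hσy, hσz] at this
    · have := hconj (swap x z * σ) (by rw [map_mul, Perm.sign_swap hxz, hs]; rfl)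
        (by rw [Perm.mul_apply, hσa, swap_apply_of_ne_of_ne hx.symm hz.symm])
      rw [Perm.mul_apply, Perm.mul_apply, Perm.mul_apply, hσx, hσy, hσz, swap_apply_left,
        swap_apply_of_ne_of_ne hxy.symm hyz, swap_apply_right] at this
      have h4 := Kb.inv_mem this
      rwa [mul_inv_rev, swap_inv, swap_inv, swap_comm y x, swap_comm z y] at h4
  have hle' : alternatingGroup {s : G ⧸ M // s ≠ π a} ≤ Kb.comap Perm.ofSubtype := by
    rw [← Equiv.Perm.closure_three_cycles_eq_alternating, Subgroup.closure_le]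
    intro t ht
    obtain ⟨u, hu⟩ : ∃ u, u ∈ t.support := by
      apply Finset.card_pos.mp
      rw [(show t.IsThreeCycle from ht).card_support]; omega
    have ht' : t.IsThreeCycle := ht
    have hu1 : t u ≠ u := Perm.mem_support.mp hu
    have hu2 : t (t u) ≠ t u := fun h => hu1 (t.injective h)
    have hu3 : t (t u) ≠ u := by
      intro h
      have h2 : (t ^ 3) u = u := by rw [← ht'.orderOf, pow_orderOf_eq_one]; rfl
      have h3 : (t ^ 3) u = t (t (t u)) := rfl
      rw [h3, h] at h2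
      exact hu1 h2
    rw [SetLike.mem_coe, Subgroup.mem_comap, (ht'.eq_swap_mul_swap_iff_mem_support).mpr hu, map_mul,
      Perm.ofSubtype_swap_eq, Perm.ofSubtype_swap_eq]
    exact hT _ _ _ u.2 (t u).2 (t (t u)).2 (fun h => hu1 (Subtype.ext h).symm)
      (fun h => hu2 (Subtype.ext h).symm) (fun h => hu3 (Subtype.ext h).symm)
  -- the even elements of `G` form a transitive normal subgroup
  let R : Subgroup G := (alternatingGroup (G ⧸ M)).comap φ
  have hRne : R ≠ ⊥ := by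
    intro hR
    have : c ∈ R := by
      show φ c ∈ alternatingGroup _
      rw [hc']; exact (Perm.isThreeCycle_swap_mul_swap_same hpd hpe hde).mem_alternatingGroup
    rw [hR, Subgroup.mem_bot] at this
    rw [this, map_one] at hc'
    exact (Perm.isThreeCycle_swap_mul_swap_same hpd hpe hde).ne_one hc'.symm
  haveI := hqp R inferInstance hRne
  obtain ⟨r, hr⟩ := exists_smul_eq R a (m₀ • a)
  rw [Subgroup.smul_def] at hr
  have hrB : φ (r : G) (π a) = π a := by
    show (r : G) • π a = π a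
    rw [← hπs, hr, hfib.2]
  have hrsub : ∀ s, φ (r : G) s ≠ π a ↔ s ≠ π a := fun s =>
    ⟨fun h e => h (e ▸ hrB), fun h e => h ((φ (r : G)).injective (e.trans hrB.symm))⟩
  have hrsupp : ∀ s, φ (r : G) s ≠ s → s ≠ π a := fun s h e => h (e ▸ hrB)
  have hrK : φ (r : G) ∈ Kb := by
    have h5 : Perm.subtypePerm (p := fun s => s ≠ π a) (φ (r : G)) hrsub ∈ alternatingGroup _ := by
      rw [Equiv.Perm.mem_alternatingGroup, Perm.sign_subtypePerm _ hrsub hrsupp]
      exact Equiv.Perm.mem_alternatingGroup.mp r.2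
    have h6 := hle' h5
    rw [Subgroup.mem_comap, Perm.ofSubtype_subtypePerm hrsub hrsupp] at h6
    exact h6
  obtain ⟨k, hk, hkr⟩ := hrK
  have hkr' : k = (r : G) := eq_of_smul_eq_smul fun s : G ⧸ M => Equiv.ext_iff.mp hkr s
  exact hm₀' (hr.symm.trans ((hKf _).mp (hkr' ▸ hk) a rfl))

end CfsgLib.AltGroups.Marggraf
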