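import Mathlib.GroupTheory.Subgroup.Simple
import Mathlib.Algebra.Group.Pi.Lemmas
import Mathlib.Data.Finite.Card
import Mathlib.Tactic

/-!
Automorphisms and subdirect subgroups of powers of a non-abelian simple group.
-/

set_option autoImplicit false

namespace CfsgLib.AltGroups

variable {ι : Type*} [Finite ι] {T : Type*} [Group T] [Finite T] [IsSimpleGroup T]

theorem center_eq_bot_of_not_comm (hT : ¬ IsMulCommutative T) : Subgroup.center T = ⊥ := by
  rcases (inferInstance : (Subgroup.center T).Normal).eq_bot_or_eq_top with h | h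
  · exact h
  · exact absurd ⟨⟨fun a b => (Subgroup.mem_center_iff.mp (h ▸ Subgroup.mem_top b) a)⟩⟩ hT

/-- An automorphism of a power of a non-abelian simple group permutes the factors. -/
theorem exists_perm_of_mulEquiv_pi (hT : ¬ IsMulCommutative T) (φ : (ι → T) ≃* (ι → T)) :
    ∃ (π : ι → ι) (a : ι → (T ≃* T)), Function.Bijective π ∧ ∀ f j, φ f j = a j (f (π j)) := by
  classical
  have key : ∀ j, ∃ (i : ι) (b : T ≃* T), ∀ f, φ f j = b (f i) := by
    intro j
    let h : (ι → T) →* T := (Pi.evalMonoidHom (fun _ : ι => T) j).comp φ.toMonoidHom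
    have hs : Function.Surjective h := fun t => ⟨φ.symm (Pi.mulSingle j t), by simp [h]⟩
    let F : ι → Subgroup T := fun i => (h.comp (MonoidHom.mulSingle (fun _ : ι => T) i)).range
    have hFn : ∀ i, (F i).Normal := fun i => ⟨fun x hx y => by
      obtain ⟨t, rfl⟩ := hx
      obtain ⟨g, rfl⟩ := hs y
      refine ⟨g i * t * (g i)⁻¹, ?_⟩
      show h (Pi.mulSingle i (g i * t * (g i)⁻¹)) = h g * h (Pi.mulSingle i t) * (h g)⁻¹
      rw [← map_inv, ← map_mul, ← map_mul]
      congr 1
      funext l
      by_cases hl : l = i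
      · subst hl; simp
      · simp [Pi.mulSingle_eq_of_ne hl]⟩
    obtain ⟨i, hi⟩ : ∃ i, F i ≠ ⊥ := by
      by_contra hne
      push Not at hne
      have : h = 1 := by
        refine MonoidHom.pi_ext (fun i t => ?_)
        have : h (Pi.mulSingle i t) ∈ F i := ⟨t, rfl⟩
        rw [hne i, Subgroup.mem_bot] at this
        simpa using this
      obtain ⟨t, ht⟩ := exists_ne (1 : T)
      obtain ⟨g, hg⟩ := hs t
      rw [this] at hg
      exact ht hg.symm
    have hitop : F i = ⊤ := ((hFn i).eq_bot_or_eq_top).resolve_left hi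
    let b : T →* T := h.comp (MonoidHom.mulSingle (fun _ : ι => T) i)
    have hb : Function.Surjective b := MonoidHom.range_eq_top.mp hitop
    refine ⟨i, MulEquiv.ofBijective b ((Nat.bijective_iff_surjective_and_card b).mpr ⟨hb, rfl⟩), fun f => ?_⟩
    have : h = b.comp (Pi.evalMonoidHom (fun _ : ι => T) i) := by
      refine MonoidHom.pi_ext (fun l t => ?_)
      by_cases hl : l = i
      · subst hl; simp [b]
      · have hcen : h (Pi.mulSingle l t) ∈ Subgroup.center T := by
          rw [Subgroup.mem_center_iff]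
          intro x
          obtain ⟨u, rfl⟩ := hb x
          show h (Pi.mulSingle i u) * _ = _ * h (Pi.mulSingle i u)
          rw [← map_mul, ← map_mul]
          congr 1
          funext l'
          by_cases h1 : l' = i
          · subst h1; simp [Pi.mulSingle_eq_of_ne (Ne.symm hl)]
          · simp [Pi.mulSingle_eq_of_ne h1]
        rw [center_eq_bot_of_not_comm hT, Subgroup.mem_bot] at hcen
        simp [hcen, Pi.mulSingle_eq_of_ne (Ne.symm hl)]
    exact DFunLike.congr_fun this f
  choose π a hπ using key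
  refine ⟨π, a, ?_, fun f j => hπ j f⟩
  rw [← Finite.injective_iff_bijective]
  intro j j' hjj
  by_contra hne
  obtain ⟨t, ht⟩ := exists_ne (1 : T)
  obtain ⟨f, hf⟩ := φ.surjective (Pi.mulSingle j t)
  have h1 := hπ j f
  have h2 := hπ j' f
  rw [hf, Pi.mulSingle_eq_same] at h1
  rw [hf, Pi.mulSingle_eq_of_ne (Ne.symm hne), ← hjj] at h2
  rw [(a j').map_eq_one_iff.mp h2.symm, map_one] at h1
  exact ht h1

variable (D : Subgroup (ι → T)) (hD : ∀ i t, ∃ f ∈ D, f i = t)

include hD

/-- If the kernel of a projection lies in the kernel of another, the two are linked by an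
automorphism. -/
theorem exists_link {i j : ι} (h : ∀ f ∈ D, f i = 1 → f j = 1) :
    ∃ b : T ≃* T, ∀ f ∈ D, f j = b (f i) := by
  choose s hs hsi using hD i
  have huniq : ∀ f ∈ D, f j = s (f i) j := by
    intro f hf
    have := h _ (D.mul_mem hf (D.inv_mem (hs (f i)))) (by simp [hsi])
    simpa [mul_inv_eq_one] using this
  let b : T →* T :=
    { toFun := fun t => s t j
      map_one' := by
        have := huniq 1 D.one_mem
        simpa using this.symm
      map_mul' := fun t u => by
        have := huniq _ (D.mul_mem (hs t) (hs u))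
        simp [hsi] at this
        exact this.symm }
  have hb : Function.Surjective b := by
    intro t
    obtain ⟨f, hf, rfl⟩ := hD j t
    exact ⟨f i, (huniq f hf).symm⟩
  exact ⟨MulEquiv.ofBijective b ((Nat.bijective_iff_surjective_and_card b).mpr ⟨hb, rfl⟩), huniq⟩

theorem link_symm {i j : ι} (h : ∀ f ∈ D, f i = 1 → f j = 1) :
    ∀ f ∈ D, f j = 1 → f i = 1 := by
  obtain ⟨b, hb⟩ := exists_link D hD h
  intro f hf hfj
  rw [hb f hf] at hfj
  exact b.map_eq_one_iff.mp hfj

/-- A subdirect subgroup is onto on pairwise unlinked coordinates. -/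
theorem exists_mem_eqOn (hT : ¬ IsMulCommutative T) (J : Finset ι)
    (hJ : ∀ i ∈ J, ∀ j ∈ J, i ≠ j → ¬ ∀ f ∈ D, f i = 1 → f j = 1) (v : ι → T) :
    ∃ f ∈ D, ∀ i ∈ J, f i = v i := by
  classical
  have hfull : ∀ (S : Finset ι), S ⊆ J → ∀ j ∈ J, j ∉ S →
      ∀ t : T, ∃ f ∈ D, (∀ i ∈ S, f i = 1) ∧ f j = t := by
    intro S
    induction S using Finset.induction with
    | empty =>
      intro _ j _ _ t
      obtain ⟨f, hf, hft⟩ := hD j t
      exact ⟨f, hf, by simp, hft⟩
    | @insert i S hiS ih =>
      intro hsub j hj hjS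
      simp only [Finset.mem_insert, not_or] at hjS
      have hiJ : i ∈ J := hsub (Finset.mem_insert_self i S)
      let L : Subgroup T :=
        { carrier := {t | ∃ f ∈ D, (∀ l ∈ insert i S, f l = 1) ∧ f j = t}
          one_mem' := ⟨1, D.one_mem, fun _ _ => rfl, rfl⟩
          mul_mem' := by
            rintro t u ⟨f, hf, hf1, rfl⟩ ⟨g, hg, hg1, rfl⟩
            exact ⟨f * g, D.mul_mem hf hg, fun l hl => by simp [hf1 l hl, hg1 l hl], rfl⟩
          inv_mem' := by
            rintro t ⟨f, hf, hf1, rfl⟩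
            exact ⟨f⁻¹, D.inv_mem hf, fun l hl => by simp [hf1 l hl], rfl⟩ }
      have hLn : L.Normal := ⟨by
        rintro t ⟨f, hf, hf1, rfl⟩ y
        obtain ⟨g, hg, rfl⟩ := hD j y
        exact ⟨g * f * g⁻¹, D.mul_mem (D.mul_mem hg hf) (D.inv_mem hg), fun l hl => by simp [hf1 l hl], rfl⟩⟩
      -- the elements trivial at `i` are onto at `j`
      have hij : ∀ t : T, ∃ g ∈ D, g i = 1 ∧ g j = t := by
        let M : Subgroup T :=
          { carrier := {t | ∃ f ∈ D, f i = 1 ∧ f j = t}
            one_mem' := ⟨1, D.one_mem, rfl, rfl⟩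
            mul_mem' := by
              rintro t u ⟨f, hf, hf1, rfl⟩ ⟨g, hg, hg1, rfl⟩
              exact ⟨f * g, D.mul_mem hf hg, by simp [hf1, hg1], rfl⟩
            inv_mem' := by
              rintro t ⟨f, hf, hf1, rfl⟩
              exact ⟨f⁻¹, D.inv_mem hf, by simp [hf1], rfl⟩ }
        have hMn : M.Normal := ⟨by
          rintro t ⟨f, hf, hf1, rfl⟩ y
          obtain ⟨g, hg, rfl⟩ := hD j y
          exact ⟨g * f * g⁻¹, D.mul_mem (D.mul_mem hg hf) (D.inv_mem hg), by simp [hf1], rfl⟩⟩
        have hne : M ≠ ⊥ := by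
          intro hb
          refine hJ i hiJ j hj (Ne.symm hjS.1) (fun f hf hfi => ?_)
          have : f j ∈ M := ⟨f, hf, hfi, rfl⟩
          rwa [hb, Subgroup.mem_bot] at this
        intro t
        exact ((hMn.eq_bot_or_eq_top).resolve_left hne ▸ Subgroup.mem_top t : t ∈ M)
      have hLne : L ≠ ⊥ := by
        intro hb
        apply hT
        refine ⟨⟨fun t u => ?_⟩⟩
        obtain ⟨f, hf, hf1, rfl⟩ := ih ((Finset.subset_insert i S).trans hsub) j hj hjS.2 t
        obtain ⟨g, hg, hg1, rfl⟩ := hij u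
        have : (f * g * f⁻¹ * g⁻¹) j ∈ L := by
          refine ⟨_, D.mul_mem (D.mul_mem (D.mul_mem hf hg) (D.inv_mem hf)) (D.inv_mem hg), ?_, rfl⟩
          intro l hl
          rcases Finset.mem_insert.mp hl with rfl | hl
          · simp [hg1]
          · simp [hf1 l hl]
        rw [hb, Subgroup.mem_bot] at this
        simpa [mul_inv_eq_one, mul_inv_eq_iff_eq_mul] using this
      intro t
      exact ((hLn.eq_bot_or_eq_top).resolve_left hLne ▸ Subgroup.mem_top t : t ∈ L)
  suffices ∀ S : Finset ι, S ⊆ J → ∃ f ∈ D, ∀ i ∈ S, f i = v i from this J (le_refl J)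
  intro S
  induction S using Finset.induction with
  | empty => exact fun _ => ⟨1, D.one_mem, by simp⟩
  | @insert j S hjS ih =>
    intro hsub
    obtain ⟨f, hf, hfv⟩ := ih ((Finset.subset_insert j S).trans hsub)
    obtain ⟨g, hg, hg1, hgj⟩ := hfull S ((Finset.subset_insert j S).trans hsub) j
      (hsub (Finset.mem_insert_self j S)) hjS ((f j)⁻¹ * v j)
    refine ⟨f * g, D.mul_mem hf hg, fun l hl => ?_⟩
    rcases Finset.mem_insert.mp hl with rfl | hl
    · simp [hgj]
    · simp [hfv l hl, hg1 l hl]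

end CfsgLib.AltGroups
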