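import Cfsg.Agent.Lib.AltGroups.CompositionLength

/-!
Subgroups of a power of a non-abelian simple group that are invariant and maximal invariant under a
group of automorphisms with no invariant set of factors.
-/

set_option autoImplicit false
set_option linter.style.haveILetI false
set_option linter.unusedSectionVars false

namespace CfsgLib.AltGroups.Power

variable {k : ℕ} {T : Type*} [Group T]

/-- The subgroup of elements supported on `J`. -/
def supp (k : ℕ) (T : Type*) [Group T] (J : Finset (Fin k)) : Subgroup (Fin k → T) where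
  carrier := {x | ∀ i, i ∉ J → x i = 1}
  one_mem' := fun _ _ => rfl
  mul_mem' := fun hx hy i hi => by rw [Pi.mul_apply, hx i hi, hy i hi, one_mul]
  inv_mem' := fun hx i hi => by rw [Pi.inv_apply, hx i hi, inv_one]

instance (J : Finset (Fin k)) : (supp k T J).Normal :=
  ⟨fun x hx g i hi => by rw [Pi.mul_apply, Pi.mul_apply, hx i hi, mul_one, Pi.inv_apply, mul_inv_cancel]⟩

theorem mem_supp {J : Finset (Fin k)} {x : Fin k → T} : x ∈ supp k T J ↔ ∀ i, i ∉ J → x i = 1 := Iff.rfl

variable [Finite T] [IsSimpleGroup T]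

theorem center_eq_bot (hna : ∃ a b : T, a * b ≠ b * a) : Subgroup.center T = ⊥ := by
  rcases (inferInstance : (Subgroup.center T).Normal).eq_bot_or_eq_top with h | h
  · exact h
  · obtain ⟨a, b, hab⟩ := hna
    exact absurd (Subgroup.mem_center_iff.mp (h ▸ Subgroup.mem_top b) a) hab

theorem eq_one_of_forall_commute (hna : ∃ a b : T, a * b ≠ b * a) {c : T} (h : ∀ t, t * c = c * t) : c = 1 := by
  have : c ∈ Subgroup.center T := Subgroup.mem_center_iff.mpr h
  rwa [center_eq_bot hna, Subgroup.mem_bot] at this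

/-- A normal subgroup contains every factor on which it projects non-trivially. -/
theorem single_mem_of_normal (hna : ∃ a b : T, a * b ≠ b * a) (M : Subgroup (Fin k → T)) [M.Normal]
    {j : Fin k} {m : Fin k → T} (hm : m ∈ M) (hmj : m j ≠ 1) (t : T) : Pi.mulSingle j t ∈ M := by
  let A := M.comap (MonoidHom.mulSingle (fun _ : Fin k => T) j)
  obtain ⟨b, hb⟩ : ∃ b, b * m j ≠ m j * b := by
    by_contra hcon
    push Not at hcon
    exact hmj (eq_one_of_forall_commute hna hcon)
  have hmem : Pi.mulSingle j (m j * b * (m j)⁻¹ * b⁻¹) ∈ M := by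
    have h1 : m * ((Pi.mulSingle j b : Fin k → T) * m⁻¹ * (Pi.mulSingle j b : Fin k → T)⁻¹) ∈ M :=
      M.mul_mem hm (Subgroup.Normal.conj_mem inferInstance _ (M.inv_mem hm) _)
    convert h1 using 1
    funext i
    by_cases hi : i = j
    · subst hi; simp [mul_assoc]
    · simp [Pi.mulSingle_eq_of_ne hi]
  rcases (inferInstance : A.Normal).eq_bot_or_eq_top with h | h
  · exfalso
    have h1 : m j * b * (m j)⁻¹ * b⁻¹ ∈ A := hmem
    rw [h, Subgroup.mem_bot, mul_inv_eq_one, mul_inv_eq_iff_eq_mul] at h1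
    exact hb h1.symm
  · have : t ∈ A := h ▸ Subgroup.mem_top t
    exact this

/-- An automorphism permutes the factors. -/
theorem exists_perm (hna : ∃ a b : T, a * b ≠ b * a) (α : (Fin k → T) ≃* (Fin k → T)) :
    ∃ σ : Equiv.Perm (Fin k), (∀ i t, ∀ j, j ≠ σ i → α (Pi.mulSingle i t) j = 1) ∧
      ∀ (x : Fin k → T) (i : Fin k), α x (σ i) = α (Pi.mulSingle i (x i)) (σ i) := by
  have himg : ∀ i, ∃ j, (∀ t, ∀ l, l ≠ j → α (Pi.mulSingle i t) l = 1) ∧
      ∀ s, ∃ t, α (Pi.mulSingle i t) = Pi.mulSingle j s := by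
    intro i
    set M := (MonoidHom.mulSingle (fun _ : Fin k => T) i).range.map α.toMonoidHom with hM
    haveI : (MonoidHom.mulSingle (fun _ : Fin k => T) i).range.Normal := by
      constructor
      rintro _ ⟨t, rfl⟩ g
      refine ⟨g i * t * (g i)⁻¹, funext fun l => ?_⟩
      by_cases hl : l = i
      · subst hl; simp
      · simp [Pi.mulSingle_eq_of_ne hl]
    haveI : M.Normal := Subgroup.Normal.map inferInstance _ α.surjective
    obtain ⟨t₀, ht₀⟩ := exists_ne (1 : T)
    have hmem : ∀ t, α (Pi.mulSingle i t) ∈ M := fun t => ⟨_, ⟨t, rfl⟩, rfl⟩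
    obtain ⟨j, hj⟩ : ∃ j, α (Pi.mulSingle i t₀) j ≠ 1 := by
      by_contra hcon
      push Not at hcon
      have h1 : α (Pi.mulSingle i t₀) = 1 := funext hcon
      rw [MulEquiv.map_eq_one_iff, Pi.mulSingle_eq_one_iff] at h1
      exact ht₀ h1
    have hsub : ∀ s, ∃ t, α (Pi.mulSingle i t) = Pi.mulSingle j s := by
      intro s
      obtain ⟨_, ⟨t, rfl⟩, ht⟩ := single_mem_of_normal hna M (hmem t₀) hj s
      exact ⟨t, ht⟩
    choose τ hτ using hsub
    have hτi : Function.Injective τ := fun a b h => by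
      have := (hτ a).symm.trans ((congrArg (fun t => α (Pi.mulSingle i t)) h).trans (hτ b))
      exact Pi.mulSingle_injective j this
    refine ⟨j, fun t l hl => ?_, fun s => ⟨τ s, hτ s⟩⟩
    obtain ⟨s, rfl⟩ := (Finite.injective_iff_surjective.mp hτi) t
    rw [hτ, Pi.mulSingle_eq_of_ne hl]
  choose σ hσ1 hσ2 using himg
  have hσinj : Function.Injective σ := by
    intro i i' h
    by_contra hne
    obtain ⟨s, hs⟩ := exists_ne (1 : T)
    obtain ⟨t, ht⟩ := hσ2 i s
    obtain ⟨t', ht'⟩ := hσ2 i' s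
    rw [← h, ← ht] at ht'
    have h1 := congrFun (α.injective ht') i
    rw [Pi.mulSingle_eq_of_ne hne, Pi.mulSingle_eq_same] at h1
    rw [← h1, Pi.mulSingle_one, map_one, eq_comm, Pi.mulSingle_eq_one_iff] at ht
    exact hs ht
  refine ⟨Equiv.ofBijective σ (Finite.injective_iff_bijective.mp hσinj), fun i t j hj => hσ1 i t j hj,
    fun x i => ?_⟩
  show α x (σ i) = α (Pi.mulSingle i (x i)) (σ i)
  obtain ⟨rest, hrest⟩ : ∃ r, r = x * (Pi.mulSingle i (x i) : Fin k → T)⁻¹ := ⟨_, rfl⟩
  have hx : x = rest * Pi.mulSingle i (x i) := by rw [hrest, inv_mul_cancel_right]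
  have hresti : rest i = 1 := by simp [hrest]
  have hc : α rest (σ i) = 1 := by
    refine eq_one_of_forall_commute hna fun s => ?_
    obtain ⟨t, ht⟩ := hσ2 i s
    have h1 : (Pi.mulSingle i t : Fin k → T) * rest = rest * Pi.mulSingle i t := by
      funext l
      by_cases hl : l = i
      · subst hl; simp [hresti]
      · simp [Pi.mulSingle_eq_of_ne hl]
    have h2 := congrFun (congrArg α h1) (σ i)
    rw [map_mul, map_mul, Pi.mul_apply, Pi.mul_apply, ht, Pi.mulSingle_eq_same] at h2
    exact h2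
  conv_lhs => rw [hx]
  rw [map_mul, Pi.mul_apply, hc, one_mul]

/-- The dichotomy for an invariant, maximal invariant subgroup `V`. -/
theorem dichotomy (hna : ∃ a b : T, a * b ≠ b * a) (V : Subgroup (Fin k → T))
    (𝒜 : Set ((Fin k → T) ≃* (Fin k → T))) (hV : ∀ α ∈ 𝒜, ∀ v ∈ V, α v ∈ V)
    (hirr : ∀ U : Finset (Fin k), (∀ α ∈ 𝒜, ∀ x ∈ supp k T U, α x ∈ supp k T U) → U = ∅ ∨ U = Finset.univ)
    (hmax : ∀ P : Subgroup (Fin k → T), V ≤ P → (∀ α ∈ 𝒜, ∀ x ∈ P, α x ∈ P) → P = V ∨ P = ⊤) :
    k ≤ compLen V + 1 ∨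
      ∃ s, 2 ≤ s ∧ k ≤ 2 * s ∧ Nat.card T ^ s * Nat.card V ≤ Nat.card T ^ k := by
  classical
  obtain ⟨S, hS, hSmax⟩ := (Finset.univ.filter fun S : Finset (Fin k) => V ⊓ supp k T S = ⊥).exists_max_image
    Finset.card ⟨∅, by
      simp only [Finset.mem_filter, Finset.mem_univ, true_and, Subgroup.eq_bot_iff_forall]
      exact fun x hx => funext fun i => hx.2 i (Finset.notMem_empty i)⟩
  simp only [Finset.mem_filter, Finset.mem_univ, true_and] at hS hSmax
  have hD : ∀ i ∉ S, ∃ d, d ∈ V ∧ d ∈ supp k T (insert i S) ∧ d i ≠ 1 := by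
    intro i hi
    by_contra hcon
    push Not at hcon
    have : V ⊓ supp k T (insert i S) = ⊥ := by
      rw [eq_bot_iff, ← hS]
      rintro x ⟨hxV, hxs⟩
      refine ⟨hxV, fun l hl => ?_⟩
      by_cases hli : l = i
      · subst hli; exact hcon x hxV hxs
      · exact hxs l (by simp [hli, hl])
    have h1 := hSmax _ this
    rw [Finset.card_insert_of_notMem hi] at h1
    omega
  -- a chain in `V` of length `k - |S|`
  have hlen : k ≤ compLen V + S.card := by
    have key : ∀ J : Finset (Fin k), Disjoint J S → ∃ Q : Subgroup V, Q.Normal ∧ SubnormalChain Q J.card ∧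
        ∀ v ∈ Q, ∀ i, i ∉ J → i ∉ S → (v : Fin k → T) i = 1 := by
      intro J
      induction J using Finset.induction_on with
      | empty =>
        intro _
        exact ⟨⊥, inferInstance, SubnormalChain.bot, fun v hv i _ _ => by
          rw [Subgroup.mem_bot] at hv; rw [hv]; rfl⟩
      | @insert a J ha ih =>
        intro hdis
        rw [Finset.disjoint_insert_left] at hdis
        obtain ⟨Q, hQn, hQc, hQ⟩ := ih hdis.2
        haveI := hQn
        set Da := (supp k T (insert a S)).subgroupOf V with hDa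
        refine ⟨Q ⊔ Da, inferInstance, ?_, ?_⟩
        · rw [Finset.card_insert_of_notMem ha]
          refine hQc.step (lt_of_le_of_ne le_sup_left fun e => ?_)
            (Subgroup.Normal.subgroupOf hQn _)
          obtain ⟨d, hdV, hds, hda⟩ := hD a hdis.1
          have : (⟨d, hdV⟩ : V) ∈ Q := e ▸ Subgroup.mem_sup_right (show (⟨d, hdV⟩ : V) ∈ Da from hds)
          exact hda (hQ _ this a ha hdis.1)
        · intro v hv i hi hiS
          rw [Subgroup.mem_sup_of_normal_left] at hv
          obtain ⟨y, hy, z, hz, rfl⟩ := hv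
          rw [Finset.mem_insert, not_or] at hi
          rw [Subgroup.coe_mul, Pi.mul_apply, hQ y hy i hi.2 hiS, one_mul]
          exact (Subgroup.mem_subgroupOf.mp hz) i (by simp [hi.1, hiS])
    obtain ⟨Q, hQn, hQc, -⟩ := key (Finset.univ \ S) Finset.sdiff_disjoint
    haveI := hQn
    obtain ⟨m, hm, hmc⟩ := hQc.exists_top
    have := le_compLen hmc
    rw [Finset.card_sdiff_of_subset (Finset.subset_univ _), Finset.card_univ, Fintype.card_fin] at hm
    omega
  rcases Nat.lt_or_ge S.card 2 with hs | hs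
  · exact Or.inl (by omega)
  refine Or.inr ⟨S.card, hs, ?_, ?_⟩
  swap
  · -- the index
    have hinj : Function.Injective fun p : supp k T S × V => ((p.1 : Fin k → T) * p.2) := by
      rintro ⟨a, b⟩ ⟨a', b'⟩ h
      have h' : (a : Fin k → T) * b = a' * b' := h
      have h1 : (b : Fin k → T) * (b' : Fin k → T)⁻¹ ∈ V ⊓ supp k T S := by
        refine ⟨V.mul_mem b.2 (V.inv_mem b'.2), ?_⟩
        have : (b : Fin k → T) * (b' : Fin k → T)⁻¹ = (a : Fin k → T)⁻¹ * a' := by
          rw [eq_inv_mul_iff_mul_eq, ← mul_assoc, h', mul_inv_cancel_right]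
        rw [this]
        exact (supp k T S).mul_mem ((supp k T S).inv_mem a.2) a'.2
      rw [hS, Subgroup.mem_bot, mul_inv_eq_one] at h1
      rw [h1] at h'
      exact Prod.ext (Subtype.ext (mul_right_cancel h')) (Subtype.ext h1)
    have hcs : Nat.card (supp k T S) = Nat.card T ^ S.card := by
      rw [← Nat.card_eq_finsetCard S, ← Nat.card_fun]
      exact Nat.card_congr
        { toFun := fun x i => (x : Fin k → T) i
          invFun := fun f => ⟨fun i => if h : i ∈ S then f ⟨i, h⟩ else 1, fun i hi => by simp [hi]⟩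
          left_inv := fun x => Subtype.ext (funext fun i => by
            by_cases h : i ∈ S
            · simp [h]
            · simp [h, x.2 i h])
          right_inv := fun f => funext fun i => by simp }
    have h1 := Nat.card_le_card_of_injective _ hinj
    rw [Nat.card_prod, hcs, Nat.card_fun, Nat.card_fin] at h1
    exact h1
  -- two dichotomies
  choose σ hσ1 hσ2 using fun α : (Fin k → T) ≃* (Fin k → T) => exists_perm hna α
  have hsuppσ : ∀ (α : (Fin k → T) ≃* (Fin k → T)) (U : Finset (Fin k)), (∀ i ∈ U, σ α i ∈ U) →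
      ∀ x ∈ supp k T U, α x ∈ supp k T U := by
    intro α U hU x hx j hj
    obtain ⟨i, rfl⟩ := (σ α).surjective j
    rw [hσ2, hx i (fun hi => hj (hU i hi)), Pi.mulSingle_one, map_one]
    rfl
  set U := Finset.univ.filter fun i => ∃ v ∈ V, v ∈ supp k T {i} ∧ v ≠ 1 with hU
  have hUinv : ∀ α ∈ 𝒜, ∀ i ∈ U, σ α i ∈ U := by
    intro α hα i hi
    simp only [hU, Finset.mem_filter, Finset.mem_univ, true_and] at hi ⊢
    obtain ⟨v, hv, hvs, hv1⟩ := hi
    refine ⟨α v, hV α hα v hv, fun j hj => ?_, fun e => hv1 (by rwa [MulEquiv.map_eq_one_iff] at e)⟩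
    rw [Finset.mem_singleton] at hj
    have hvv : v = Pi.mulSingle i (v i) := funext fun l => by
      by_cases hl : l = i
      · subst hl; rw [Pi.mulSingle_eq_same]
      · rw [Pi.mulSingle_eq_of_ne hl]; exact hvs l (by simp [hl])
    rw [hvv]
    exact hσ1 α i _ j hj
  rcases hirr U (fun α hα => hsuppσ α U (hUinv α hα)) with hU0 | hU1
  swap
  · -- some factor meets `V`: impossible as `S` is non-empty
    exfalso
    obtain ⟨i, hi⟩ := Finset.card_pos.mp (show 0 < S.card by omega)
    have : i ∈ U := hU1 ▸ Finset.mem_univ i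
    simp only [hU, Finset.mem_filter, Finset.mem_univ, true_and] at this
    obtain ⟨v, hv, hvs, hv1⟩ := this
    have hmem : v ∈ V ⊓ supp k T S := ⟨hv, fun l hl => hvs l (by
      rw [Finset.mem_singleton]; rintro rfl; exact hl hi)⟩
    rw [hS, Subgroup.mem_bot] at hmem
    exact hv1 hmem
  let P : Subgroup (Fin k → T) :=
    { carrier := {x | ∀ i, ∃ v ∈ V, v i = x i}
      one_mem' := fun i => ⟨1, V.one_mem, rfl⟩
      mul_mem' := fun {x y} hx hy i => by
        obtain ⟨v, hv, hvi⟩ := hx i
        obtain ⟨w, hw, hwi⟩ := hy i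
        exact ⟨v * w, V.mul_mem hv hw, by rw [Pi.mul_apply, Pi.mul_apply, hvi, hwi]⟩
      inv_mem' := fun {x} hx i => by
        obtain ⟨v, hv, hvi⟩ := hx i
        exact ⟨v⁻¹, V.inv_mem hv, by rw [Pi.inv_apply, Pi.inv_apply, hvi]⟩ }
  rcases hmax P (fun v hv i => ⟨v, hv, rfl⟩) (fun α hα x hx j => by
      obtain ⟨i, rfl⟩ := (σ α).surjective j
      obtain ⟨v, hv, hvi⟩ := hx i
      exact ⟨α v, hV α hα v hv, by rw [hσ2 α v, hσ2 α x, hvi]⟩) with hP | hP
  · -- `V` is a product of subgroups of the factors, so trivial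
    have hV0 : ∀ v ∈ V, v = 1 := by
      intro v hv
      funext i
      by_contra hne
      have hmem : Pi.mulSingle i (v i) ∈ V := by
        rw [← hP]
        intro l
        by_cases hl : l = i
        · subst hl; exact ⟨v, hv, by rw [Pi.mulSingle_eq_same]⟩
        · exact ⟨1, V.one_mem, by rw [Pi.mulSingle_eq_of_ne hl]; rfl⟩
      have : i ∈ U := by
        simp only [hU, Finset.mem_filter, Finset.mem_univ, true_and]
        exact ⟨_, hmem, fun l hl => Pi.mulSingle_eq_of_ne (by simpa using hl) _,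
          fun e => hne (Pi.mulSingle_eq_one_iff.mp e)⟩
      rw [hU0] at this
      exact Finset.notMem_empty i this
    have : S = Finset.univ := by
      by_contra hne
      obtain ⟨i, hi⟩ : ∃ i, i ∉ S := by
        by_contra hcon
        push Not at hcon
        exact hne (Finset.eq_univ_iff_forall.mpr hcon)
      obtain ⟨d, hd, -, hdi⟩ := hD i hi
      rw [hV0 d hd] at hdi
      exact hdi rfl
    rw [this, Finset.card_univ, Fintype.card_fin]
    omega
  -- full projections
  have hfull : ∀ i t, ∃ v ∈ V, v i = t := fun i t => by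
    have h1 : Pi.mulSingle i t ∈ P := hP ▸ Subgroup.mem_top _
    obtain ⟨v, hv, hvi⟩ := h1 i
    exact ⟨v, hv, hvi.trans (Pi.mulSingle_eq_same (M := fun _ : Fin k => T) i t)⟩
  have hm : ∀ i : {i // i ∉ S}, ∃ m ∈ S, ∃ d, d ∈ V ∧ d ∈ supp k T (insert i.1 S) ∧ d m ≠ 1 := by
    rintro ⟨i, hi⟩
    obtain ⟨d, hd, hds, hdi⟩ := hD i hi
    by_contra hcon
    push Not at hcon
    have : i ∈ U := by
      simp only [hU, Finset.mem_filter, Finset.mem_univ, true_and]
      refine ⟨d, hd, fun l hl => ?_, fun e => hdi (congrFun e i)⟩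
      rw [Finset.mem_singleton] at hl
      by_cases hlS : l ∈ S
      · exact hcon l hlS d hd hds
      · exact hds l (by simp [hl, hlS])
    rw [hU0] at this
    exact Finset.notMem_empty i this
  choose m hmS d hdV hds hdm using hm
  have hminj : Function.Injective fun i => (⟨m i, hmS i⟩ : S) := by
    intro i i' h
    by_contra hne
    have hmm : m i = m i' := congrArg Subtype.val h
    -- each projection is everything
    have hproj : ∀ (i : {i // i ∉ S}) (t : T), ∃ e, e ∈ V ∧ e ∈ supp k T (insert i.1 S) ∧ e (m i) = t := by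
      intro i t
      let A : Subgroup T := (V ⊓ supp k T (insert i.1 S)).map (Pi.evalMonoidHom (fun _ => T) (m i))
      haveI : A.Normal := by
        constructor
        rintro _ ⟨e, ⟨he, hes⟩, rfl⟩ t'
        obtain ⟨v, hv, rfl⟩ := hfull (m i) t'
        exact ⟨v * e * v⁻¹, ⟨V.mul_mem (V.mul_mem hv he) (V.inv_mem hv),
          Subgroup.Normal.conj_mem inferInstance e hes v⟩, rfl⟩
      rcases (inferInstance : A.Normal).eq_bot_or_eq_top with hA | hA
      · exfalso
        have : d i (m i) ∈ A := ⟨d i, ⟨hdV i, hds i⟩, rfl⟩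
        rw [hA, Subgroup.mem_bot] at this
        exact hdm i this
      · obtain ⟨e, ⟨he, hes⟩, rfl⟩ := (hA ▸ Subgroup.mem_top t : t ∈ A)
        exact ⟨e, he, hes, rfl⟩
    obtain ⟨a, b, hab⟩ := hna
    obtain ⟨e, he, hes, hea⟩ := hproj i a
    obtain ⟨e', he', hes', heb⟩ := hproj i' b
    rw [← hmm] at heb
    have hc : e * e' * e⁻¹ * e'⁻¹ ∈ V ⊓ supp k T S := by
      refine ⟨V.mul_mem (V.mul_mem (V.mul_mem he he') (V.inv_mem he)) (V.inv_mem he'), fun l hl => ?_⟩
      simp only [Pi.mul_apply, Pi.inv_apply]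
      by_cases hli : l = i.1
      · have h2 : e' l = 1 := hes' l (by
          simp only [Finset.mem_insert, not_or]
          exact ⟨fun h' => hne (Subtype.ext (hli.symm.trans h')), hl⟩)
        simp [h2]
      · have h2 : e l = 1 := hes l (by simp [hli, hl])
        simp [h2]
    rw [hS, Subgroup.mem_bot] at hc
    have h3 := congrFun hc (m i)
    simp only [Pi.mul_apply, Pi.inv_apply, Pi.one_apply, hea, heb] at h3
    rw [mul_inv_eq_one, mul_inv_eq_iff_eq_mul] at h3
    exact hab h3
  have hle := Fintype.card_le_of_injective _ hminj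
  rw [Fintype.card_coe, Fintype.card_subtype_compl, Fintype.card_coe, Fintype.card_fin] at hle
  omega

end CfsgLib.AltGroups.Power
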