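/-
For a proper subgroup `K` of an alternating group, maximal among subgroups with the same normaliser, and the
largest prime `r` dividing the index: some element of order `r` has no conjugate in `K`.
-/
import Cfsg.Agent.Lib.AltGroups.ChooseLargePrime
import Cfsg.Agent.S0713

set_option autoImplicit false

namespace CfsgLib.AltGroups

open Equiv Equiv.Perm MulAction
open scoped Pointwise

variable {m : ℕ}

private theorem not_sq_dvd_factorial {r : ℕ} (hr : r.Prime) : ∀ j : ℕ, j < 2 * r → ¬ r * r ∣ j.factorial := by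
  intro j
  induction j with
  | zero =>
    intro _ h
    rw [Nat.factorial_zero, Nat.dvd_one] at h
    have := hr.two_le
    nlinarith
  | succ j ih =>
    intro hj h
    rw [Nat.factorial_succ] at h
    by_cases hdj : r ∣ j + 1
    · obtain ⟨c, hc⟩ := hdj
      have hc1 : c = 1 := by
        rcases c with _ | _ | c
        · simp at hc
        · rfl
        · exfalso; nlinarith
      subst hc1
      rw [hc, mul_one] at h
      have := hr.dvd_factorial.mp (Nat.dvd_of_mul_dvd_mul_left hr.pos h)
      omega
    · have hcop : Nat.Coprime (r * r) (j + 1) :=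
        Nat.Coprime.mul_left (hr.coprime_iff_not_dvd.mpr hdj) (hr.coprime_iff_not_dvd.mpr hdj)
      exact ih (by omega) (hcop.dvd_of_dvd_mul_left h)

/-- The alternating group is transitive on the sets of a given size at least two. -/
private theorem exists_alt_smul_eq {O T : Finset (Fin m)} (h2 : 2 ≤ O.card) (hc : T.card = O.card) :
    ∃ y : alternatingGroup (Fin m), (y : Perm (Fin m)) • O = T := by
  set σ₀ : Perm (Fin m) := (Finset.equivOfCardEq hc.symm).extendSubtype
  have h0 : σ₀ • O = T := by
    refine Finset.eq_of_subset_of_card_le ?_ (by rw [Finset.card_smul_finset, hc])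
    intro z hz
    obtain ⟨w, hw, rfl⟩ := Finset.mem_smul_finset.mp hz
    exact Equiv.extendSubtype_mem _ w hw
  rcases Int.units_eq_one_or (sign σ₀) with hs | hs
  · exact ⟨⟨σ₀, hs⟩, h0⟩
  · obtain ⟨a, ha, b, hb, hab⟩ := Finset.one_lt_card.mp (show 1 < O.card by omega)
    have hsw : swap a b • O = O := by
      refine Finset.eq_of_subset_of_card_le ?_ (le_of_eq (Finset.card_smul_finset _ _).symm)
      intro z hz
      obtain ⟨w, hw, rfl⟩ := Finset.mem_smul_finset.mp hz
      change swap a b w ∈ O
      rw [Equiv.swap_apply_def]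
      split_ifs <;> assumption
    refine ⟨⟨σ₀ * swap a b, ?_⟩, ?_⟩
    · simp [Equiv.Perm.mem_alternatingGroup, hs, sign_swap hab]
    · change (σ₀ * swap a b) • O = T
      rw [mul_smul, hsw, h0]

private theorem index_stabilizer_finset {O : Finset (Fin m)} (h2 : 2 ≤ O.card) :
    (stabilizer (alternatingGroup (Fin m)) O).index = m.choose O.card := by
  rw [MulAction.index_stabilizer]
  have horb : orbit (alternatingGroup (Fin m)) O =
      ((Finset.univ.powersetCard O.card : Finset (Finset (Fin m))) : Set (Finset (Fin m))) := by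
    ext T
    rw [Finset.mem_coe, Finset.mem_powersetCard]
    constructor
    · rintro ⟨y, rfl⟩
      exact ⟨Finset.subset_univ _, Finset.card_smul_finset (y : Perm (Fin m)) O⟩
    · rintro ⟨-, hT⟩
      obtain ⟨y, hy⟩ := exists_alt_smul_eq h2 hT
      exact ⟨y, hy⟩
  rw [horb, Set.ncard_coe_finset, Finset.card_powersetCard, Finset.card_univ, Fintype.card_fin]

/-- An element of prime order stabilising a set has enough fixed points in it. -/
private theorem mod_le_of_preserves {r : ℕ} [hr : Fact r.Prime] {z : Perm (Fin m)} (hz : z ^ r = 1)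
    (S : Finset (Fin m)) (hS : ∀ b, z b ∈ S ↔ b ∈ S) : S.card % r ≤ z.supportᶜ.card := by
  set z' : Perm {b // b ∈ S} := z.subtypePerm hS
  have hz' : z' ^ r ^ 1 = 1 := by
    rw [pow_one]
    refine Equiv.ext fun b => Subtype.ext ?_
    rw [Equiv.Perm.subtypePerm_pow]
    simp [Equiv.Perm.subtypePerm_apply, hz]
  have h1 := Equiv.Perm.card_compl_support_modEq hz'
  rw [Fintype.card_coe] at h1
  calc S.card % r = z'.supportᶜ.card % r := h1.symm
    _ ≤ z'.supportᶜ.card := Nat.mod_le _ _
    _ ≤ z.supportᶜ.card := Finset.card_le_card_of_injOn (fun b => (b : Fin m))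
        (fun b hb => by
          simp only [Finset.coe_compl, Set.mem_compl_iff, Finset.mem_coe,
            Equiv.Perm.mem_support, not_not] at hb ⊢
          exact congrArg Subtype.val hb)
        (fun b _ b' _ h => Subtype.ext h)

/-- The main lemma. -/
theorem exists_no_conj_mem (hm : 5 ≤ m) (K : Subgroup (alternatingGroup (Fin m))) (hK : K ≠ ⊤)
    {r : ℕ} (hr : r.Prime) (hrd : r ∣ K.index) (hmax : ∀ s : ℕ, s.Prime → s ∣ K.index → s ≤ r)
    (hinv : m ≠ 6 → ∀ L : Subgroup (alternatingGroup (Fin m)), K ≤ L →
      (∀ σ : Perm (Fin m), (∀ y, y ∈ K ↔ MulAut.conjNormal σ y ∈ K) → ∀ y ∈ L, MulAut.conjNormal σ y ∈ L) →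
      L = K ∨ L = ⊤) :
    ∃ x : alternatingGroup (Fin m), orderOf x = r ∧ ∀ y, y * x * y⁻¹ ∉ K := by
  classical
  haveI : Fact r.Prime := ⟨hr⟩
  have hAdvd : Nat.card (alternatingGroup (Fin m)) ∣ m.factorial := by
    have := Subgroup.card_subgroup_dvd_card (alternatingGroup (Fin m))
    rwa [Nat.card_perm, Nat.card_fin] at this
  have hcard := Subgroup.index_mul_card K
  have hindA : K.index ∣ Nat.card (alternatingGroup (Fin m)) := Dvd.intro _ hcard
  by_cases hrK : r ∣ Nat.card K
  swap
  · obtain ⟨x, hx⟩ := exists_prime_orderOf_dvd_card' r (hrd.trans hindA)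
    refine ⟨x, hx, fun y hy => hrK ?_⟩
    have h1 := Subgroup.orderOf_dvd_natCard (s := K) hy
    rwa [← MulAut.conj_apply, MulEquiv.orderOf_eq, hx] at h1
  have hrm : 2 * r ≤ m := by
    by_contra h
    exact not_sq_dvd_factorial hr m (by omega) ((hcard ▸ Nat.mul_dvd_mul hrd hrK).trans hAdvd)
  obtain ⟨p, hp, hp1, hp2⟩ := Nat.exists_prime_lt_and_le_two_mul (m / 2) (by omega)
  haveI : Fact p.Prime := ⟨hp⟩
  have hp3 : 3 ≤ p := by omega
  have hpidx : ¬ p ∣ K.index := fun h => by have := hmax p hp h; omega
  have hpK : p ∣ Nat.card K := by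
    have h2 : Nat.card (alternatingGroup (Fin m)) * 2 = m.factorial := by
      haveI : Nontrivial (Fin m) := Fin.nontrivial_iff_two_le.mpr (by omega)
      have h := two_mul_nat_card_alternatingGroup (α := Fin m)
      rw [Nat.card_perm, Nat.card_fin] at h
      linarith
    have : p ∣ Nat.card (alternatingGroup (Fin m)) :=
      (hp.dvd_mul.mp (h2 ▸ hp.dvd_factorial.mpr (by omega))).resolve_right
        (fun h => by have := Nat.le_of_dvd two_pos h; omega)
    exact (hp.dvd_mul.mp (hcard.symm ▸ this)).resolve_left hpidx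
  obtain ⟨⟨c', hc'K⟩, hc'o⟩ := exists_prime_orderOf_dvd_card' p hpK
  set K' : Subgroup (Perm (Fin m)) := K.map (alternatingGroup (Fin m)).subtype with hK'
  set c : Perm (Fin m) := (c' : Perm (Fin m)) with hcdef
  have hcK : c ∈ K' := ⟨c', hc'K, rfl⟩
  have hco : orderOf c = p := by
    rw [hcdef, Subgroup.orderOf_coe]
    simpa [← Subgroup.orderOf_coe] using hc'o
  have hcyc : c.IsCycle := isCycle_of_prime_order' (hco ▸ hp) (by rw [Fintype.card_fin, hco]; omega)
  have hcsupp : c.support.card = p := by rw [← hcyc.orderOf, hco]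
  obtain ⟨a, ha⟩ : c.support.Nonempty := Finset.card_pos.mp (by omega)
  set O : Finset (Fin m) := Finset.univ.filter (fun b => ∃ σ ∈ K', σ a = b) with hO
  have hcO : c.support ⊆ O := by
    intro b hb
    obtain ⟨i, hi⟩ := hcyc.exists_zpow_eq (mem_support.mp ha) (mem_support.mp hb)
    exact Finset.mem_filter.mpr ⟨Finset.mem_univ _, c ^ i, zpow_mem hcK i, hi⟩
  have hObig : m < 2 * O.card := by
    have := Finset.card_le_card hcO
    omega
  -- a power-of-r element with many short cycles, or an r-cycle
  by_cases htr : O = Finset.univ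
  · have htrans : IsPretransitive K' (Fin m) := by
      have hall : ∀ b, ∃ σ ∈ K', σ a = b := fun b =>
        (Finset.mem_filter.mp (htr ▸ Finset.mem_univ b : b ∈ O)).2
      refine ⟨fun x y => ?_⟩
      obtain ⟨σ, hσ, hσx⟩ := hall x
      obtain ⟨τ, hτ, hτy⟩ := hall y
      refine ⟨⟨τ * σ⁻¹, mul_mem hτ (inv_mem hσ)⟩, ?_⟩
      change τ (σ⁻¹ x) = y
      rw [← hσx]
      simp [hτy]
    have hprim : IsPreprimitive K' (Fin m) := by
      set F : Set (Fin m) := ((c.support : Finset (Fin m)) : Set (Fin m))ᶜ with hF
      have := Equiv.Perm.isPretransitive_of_isCycle_mem hcyc hcK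
      have hnc : Nat.card (SubMulAction.ofFixingSubgroup K' F) = p := by
        rw [Nat.card_eq_fintype_card, Fintype.card_subtype, ← hcsupp]
        congr 1
        ext x
        simp [SubMulAction.mem_ofFixingSubgroup_iff, hF]
      have hX : IsPreprimitive (fixingSubgroup K' F) (SubMulAction.ofFixingSubgroup K' F) :=
        IsPreprimitive.of_prime_card (by rw [hnc]; exact hp)
      let f : (SubMulAction.ofFixingSubgroup K' F) →ₑ[((fixingSubgroup K' F).subtype : fixingSubgroup K' F → K')] (Fin m) :=
        { toFun := fun x => (x : Fin m), map_smul' := fun _ _ => rfl }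
      refine IsPreprimitive.of_card_lt (f := f) ?_
      have hinj : Function.Injective f := fun x y h => Subtype.ext h
      rw [← Set.image_univ, Set.ncard_image_of_injective _ hinj, Set.ncard_univ, hnc, Nat.card_fin]
      omega
    have hnot : ¬ alternatingGroup (Fin m) ≤ K' := fun h => hK (eq_top_iff.mpr fun y _ => by
      obtain ⟨z, hz, hzy⟩ := h y.2
      rwa [← Subtype.ext hzy])
    by_cases hr2 : r = 2
    · -- K contains a three-cycle
      exfalso
      have h3 : ¬ 3 ∣ K.index := fun h => by have := hmax 3 Nat.prime_three h; omega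
      obtain ⟨g, hg⟩ := (Equiv.Perm.exists_with_cycleType_iff (Fin m) (m := {3})).mpr
        ⟨by simp; omega, by simp⟩
      have hg3 : g.IsThreeCycle := hg
      set g' : alternatingGroup (Fin m) := ⟨g, hg3.mem_alternatingGroup⟩
      have hPg : IsPGroup 3 (Subgroup.zpowers g') := by
        refine IsPGroup.of_card (n := 1) ?_
        rw [Nat.card_zpowers, ← Subgroup.orderOf_coe, pow_one]
        exact hg3.orderOf
      haveI : Fact (Nat.Prime 3) := ⟨Nat.prime_three⟩
      obtain ⟨q, hq⟩ := hPg.nonempty_fixed_point_of_prime_not_dvd_card (alternatingGroup (Fin m) ⧸ K)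
        (by rwa [← Subgroup.index_eq_card])
      obtain ⟨u, rfl⟩ := QuotientGroup.mk_surjective q
      have h1 := hq ⟨g', Subgroup.mem_zpowers g'⟩
      change ((g' * u : alternatingGroup (Fin m)) : alternatingGroup (Fin m) ⧸ K) = _ at h1
      rw [QuotientGroup.eq] at h1
      have h2 : u⁻¹ * g' * u ∈ K := by
        have := inv_mem h1
        simpa [mul_inv_rev, mul_assoc] using this
      refine hnot (Equiv.Perm.alternatingGroup_le_of_isPreprimitive_of_isThreeCycle_mem hprim
        ?_ (show ((u⁻¹ * g' * u : alternatingGroup (Fin m)) : Perm (Fin m)) ∈ K' from ⟨_, h2, rfl⟩))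
      have hconj : IsConj g ((u⁻¹ * g' * u : alternatingGroup (Fin m)) : Perm (Fin m)) :=
        isConj_iff.mpr ⟨(u : Perm (Fin m))⁻¹, by simp [g']⟩
      exact (isConj_iff_cycleType_eq.mp hconj).symm.trans hg3
    · obtain ⟨g, hg⟩ := (Equiv.Perm.exists_with_cycleType_iff (Fin m) (m := {r})).mpr
        ⟨by simp; omega, by simp [hr.two_le]⟩
      have hgA : g ∈ alternatingGroup (Fin m) := by
        rw [Equiv.Perm.mem_alternatingGroup, sign_of_cycleType, hg]
        simp only [Multiset.sum_singleton, Multiset.card_singleton]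
        exact Even.neg_one_pow (Odd.add_odd (hr.odd_of_ne_two hr2) odd_one)
      refine ⟨⟨g, hgA⟩, ?_, fun y hy => hnot ?_⟩
      · rw [← Subgroup.orderOf_coe, ← lcm_cycleType, hg]; simp
      · set z : Perm (Fin m) := (y : Perm (Fin m)) * g * (y : Perm (Fin m))⁻¹
        have hzt : z.cycleType = {r} := (cycleType_conj).trans hg
        have hzc : z.IsCycle := card_cycleType_eq_one.mp (by rw [hzt]; simp)
        refine Cfsg.Agent.S0713.result K' hprim hr (by rw [Fintype.card_fin]; omega)
          (by rw [Fintype.card_fin]; have := hr.two_le; omega) hzc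
          (by rw [← sum_cycleType, hzt]; simp) ⟨_, hy, rfl⟩
  -- intransitive
  have hOlt : O.card < m := by
    have := Finset.card_lt_card (Finset.lt_iff_ssubset.mp ((Finset.le_iff_subset.mpr (Finset.subset_univ O)).lt_of_ne htr))
    simpa using this
  set L : Subgroup (alternatingGroup (Fin m)) := stabilizer (alternatingGroup (Fin m)) O with hL
  have hpres : ∀ σ ∈ K', σ • O = O := by
    intro σ hσ
    refine Finset.eq_of_subset_of_card_le ?_ (le_of_eq (Finset.card_smul_finset _ _).symm)
    intro z hz
    obtain ⟨w, hw, rfl⟩ := Finset.mem_smul_finset.mp hz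
    obtain ⟨τ, hτ, rfl⟩ := (Finset.mem_filter.mp hw).2
    exact Finset.mem_filter.mpr ⟨Finset.mem_univ _, σ * τ, mul_mem hσ hτ, rfl⟩
  have hKL : K ≤ L := fun y hy => hpres _ ⟨y, hy, rfl⟩
  have hO2 : 2 ≤ O.card := by omega
  have hLidx : L.index = m.choose (m - O.card) := by
    rw [hL, index_stabilizer_finset hO2, Nat.choose_symm hOlt.le]
  have hLK : L.index ∣ K.index := Subgroup.index_dvd_of_le hKL
  set k := m - O.card with hk
  have hk1 : 1 ≤ k := by omega
  have hk2 : 2 * k < m := by omega
  have hkey : m % r < k % r ∧ (r = 2 → Even (m / r)) := by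
    rcases eq_or_ne m 6 with hm6 | hm6
    · have hk' : k = 1 ∨ k = 2 := by omega
      have h3 : 3 ∣ K.index := by
        refine Nat.dvd_trans ?_ hLK
        rw [hLidx, hm6]
        rcases hk' with h | h <;> rw [h] <;> decide
      have := hmax 3 Nat.prime_three h3
      obtain rfl : r = 3 := by omega
      refine ⟨?_, fun h => by omega⟩
      rw [hm6]
      rcases hk' with h | h <;> rw [h] <;> decide
    · have hLeq : L = K := by
        refine (hinv hm6 L hKL ?_).resolve_right ?_
        · intro σ hσ y hy
          -- σ permutes the orbits, hence fixes the large one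
          have hnorm : ∀ τ ∈ K', σ * τ * σ⁻¹ ∈ K' := by
            rintro _ ⟨t, ht, rfl⟩
            exact ⟨MulAut.conjNormal σ t, (hσ t).mp ht, by simp⟩
          have hσO : σ • O = O := by
            refine Finset.eq_of_subset_of_card_le ?_ (le_of_eq (Finset.card_smul_finset _ _).symm)
            obtain ⟨z, hz1, hz2⟩ : ∃ z, z ∈ σ • O ∧ z ∈ O := by
              by_contra hcon
              push Not at hcon
              have hd : _root_.Disjoint (σ • O) O := Finset.disjoint_left.mpr hcon
              have := Finset.card_le_univ (σ • O ∪ O)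
              rw [Finset.card_union_of_disjoint hd, Finset.card_smul_finset, Fintype.card_fin] at this
              omega
            intro w hw
            obtain ⟨b, hb, rfl⟩ := Finset.mem_smul_finset.mp hw
            obtain ⟨b₀, hb₀, rfl⟩ := Finset.mem_smul_finset.mp hz1
            obtain ⟨τ₀, hτ₀, hτ₀b⟩ := (Finset.mem_filter.mp hb₀).2
            obtain ⟨τ, hτ, hτb⟩ := (Finset.mem_filter.mp hb).2
            obtain ⟨ρ, hρ, hρb⟩ := (Finset.mem_filter.mp hz2).2
            refine Finset.mem_filter.mpr ⟨Finset.mem_univ _,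
              σ * (τ * τ₀⁻¹) * σ⁻¹ * ρ, mul_mem (hnorm _ (mul_mem hτ (inv_mem hτ₀))) hρ, ?_⟩
            simp only [Equiv.Perm.mul_apply, Equiv.Perm.smul_def] at hρb ⊢
            rw [hρb, Equiv.Perm.inv_def σ, Equiv.symm_apply_apply, ← hτ₀b]
            simp [hτb]
          change ((MulAut.conjNormal σ y : alternatingGroup (Fin m)) : Perm (Fin m)) • O = O
          have hyO : (y : Perm (Fin m)) • O = O := hy
          rw [MulAut.conjNormal_apply, mul_smul, mul_smul,
            inv_smul_eq_iff.mpr hσO.symm, hyO, hσO]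
        · intro h
          rw [h, Subgroup.index_top] at hLidx
          have := Nat.choose_eq_one_iff.mp hLidx.symm
          omega
      rw [← hLeq, hLidx] at hrd hmax
      obtain ⟨q, hq, hqd, hqb⟩ := exists_large_prime_dvd_choose hk1 hk2.le
      have hqr := hmax q hq hqd
      have hbig : k < r ∨ m < r * r :=
        hqb.imp (fun h => h.trans_le hqr) (fun h => h.trans_le (Nat.mul_le_mul hqr hqr))
      refine ⟨mod_lt_mod_of_prime_dvd_choose hr (by omega) hrd hbig, fun h2 => ?_⟩
      subst h2
      have hk' : k = 1 := by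
        rcases hqb with h | h
        · omega
        · nlinarith
      rw [hk', Nat.choose_one_right] at hrd hmax
      obtain ⟨j, hj⟩ := hrd
      by_contra hodd
      have hjodd : ¬ Even j := by rwa [hj, Nat.mul_div_cancel_left _ two_pos] at hodd
      obtain ⟨t, ht, htd⟩ := Nat.exists_prime_and_dvd (show j ≠ 1 by omega)
      have := hmax t ht (hj ▸ htd.mul_left 2)
      have := ht.two_le
      obtain rfl : t = 2 := by omega
      exact hjodd (even_iff_two_dvd.mpr htd)
  obtain ⟨hmod, heven⟩ := hkey
  obtain ⟨g, hg⟩ := (Equiv.Perm.exists_with_cycleType_iff (Fin m) (m := Multiset.replicate (m / r) r)).mpr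
    ⟨by rw [Multiset.sum_replicate, smul_eq_mul, Fintype.card_fin]; exact Nat.div_mul_le_self m r,
     fun a ha => (Multiset.eq_of_mem_replicate ha) ▸ hr.two_le⟩
  have hgA : g ∈ alternatingGroup (Fin m) := by
    rw [Equiv.Perm.mem_alternatingGroup, sign_of_cycleType, hg]
    simp only [Multiset.sum_replicate, Multiset.card_replicate, smul_eq_mul]
    refine Even.neg_one_pow ?_
    rw [show m / r * r + m / r = m / r * (r + 1) by ring, Nat.even_mul]
    by_cases h2 : r = 2
    · exact Or.inl (heven h2)
    · exact Or.inr (Odd.add_odd (hr.odd_of_ne_two h2) odd_one)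
  refine ⟨⟨g, hgA⟩, ?_, fun y hy => ?_⟩
  · rw [← Subgroup.orderOf_coe]
    change orderOf g = r
    refine orderOf_eq_prime ?_ ?_
    · exact pow_prime_eq_one_iff.mpr fun a ha => by rw [hg] at ha; exact Multiset.eq_of_mem_replicate ha
    · intro h
      rw [h, cycleType_one] at hg
      have := congrArg Multiset.card hg
      rw [Multiset.card_zero, Multiset.card_replicate] at this
      have := Nat.div_pos (show r ≤ m by omega) hr.pos
      omega
  · set z : Perm (Fin m) := (y : Perm (Fin m)) * g * (y : Perm (Fin m))⁻¹ with hz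
    have hzt : z.cycleType = Multiset.replicate (m / r) r := (cycleType_conj).trans hg
    have hzr : z ^ r = 1 := pow_prime_eq_one_iff.mpr fun a ha => by
      rw [hzt] at ha; exact Multiset.eq_of_mem_replicate ha
    have hzO : z • O = O := hpres z ⟨_, hy, rfl⟩
    have hzOc : ∀ b, z b ∈ Oᶜ ↔ b ∈ Oᶜ := fun b => by
      rw [Finset.mem_compl, Finset.mem_compl, not_iff_not]
      conv_lhs => rw [← hzO]
      exact Finset.smul_mem_smul_finset_iff z
    have h1 := mod_le_of_preserves hzr Oᶜ hzOc
    rw [Finset.card_compl, Fintype.card_fin, Finset.card_compl, Fintype.card_fin, ← hk, ← sum_cycleType,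
      hzt, Multiset.sum_replicate, smul_eq_mul] at h1
    have h2 := Nat.mod_add_div' m r
    omega

end CfsgLib.AltGroups
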